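import Cfsg.Agent.Lib.Helper60.G24.Data

/-! Checks for the first level (generated). -/

set_option autoImplicit false

namespace Cfsg.Agent.Lib.Helper60.G24

open Cfsg.Agent.Lib.Helper60.Cert

theorem C1ok_step_8 : allBelow (fun j => chkCAll model C1D (Nat.add 2048 j)) 256 = true := by decide +kernel
theorem C1ok_step_9 : allBelow (fun j => chkCAll model C1D (Nat.add 2304 j)) 256 = true := by decide +kernel
theorem C1ok_step_10 : allBelow (fun j => chkCAll model C1D (Nat.add 2560 j)) 256 = true := by decide +kernel
theorem C1ok_step_11 : allBelow (fun j => chkCAll model C1D (Nat.add 2816 j)) 256 = true := by decide +kernel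

end Cfsg.Agent.Lib.Helper60.G24
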