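import Cfsg.Agent.Lib.Helper60.Cert.Basic
import Cfsg.Agent.Lib.Helper60.J1.Mat

/-!
A concrete field with four elements (codes `0, 1, 2 = ω, 3 = ω + 1`), and packed pairs of a
14 × 14 and a 6 × 6 matrix over it (base 4 digits `14 i + j` and `196 + 6 i + j`), as a model for
the generic certificate layer.
-/

set_option autoImplicit false

namespace Cfsg.Agent.Lib.Helper60.G24

open Cfsg.Agent.Lib.Helper60.Cert
open Cfsg.Agent.Lib.Helper60.J1 (horner horner_lt horner_digit)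

/-- the field with four elements -/
def F4c : Type := Fin 4

instance : DecidableEq F4c := inferInstanceAs (DecidableEq (Fin 4))
instance : Fintype F4c := inferInstanceAs (Fintype (Fin 4))

/-- the multiplication table -/
def MT : ℕ := 2625168384
/-- the table of inverses -/
def IT : ℕ := 180

/-- multiplication of codes -/
def fm (u v : ℕ) : ℕ := Nat.land (Nat.shiftRight MT (Nat.mul 2 (Nat.add (Nat.mul 4 u) v))) 3

theorem mod4_lt (n : ℕ) : Nat.mod n 4 < 4 := Nat.mod_lt _ (by norm_num)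

/-- the element with a given code -/
def cF (n : ℕ) : F4c := (⟨Nat.mod n 4, mod4_lt n⟩ : Fin 4)
/-- the code of an element -/
def vF (a : F4c) : ℕ := Fin.val (show Fin 4 from a)

def add4 (a b : F4c) : F4c := cF (Nat.xor (vF a) (vF b))
def mul4 (a b : F4c) : F4c := cF (fm (vF a) (vF b))
def neg4 (a : F4c) : F4c := a
def inv4 (a : F4c) : F4c := cF (Nat.land (Nat.shiftRight IT (Nat.mul 2 (vF a))) 3)

theorem add4_assoc : ∀ a b c : F4c, add4 (add4 a b) c = add4 a (add4 b c) := by decide +kernel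
theorem add4_comm : ∀ a b : F4c, add4 a b = add4 b a := by decide +kernel
theorem zero_add4 : ∀ a : F4c, add4 (cF 0) a = a := by decide +kernel
theorem add4_zero : ∀ a : F4c, add4 a (cF 0) = a := by decide +kernel
theorem neg4_add4 : ∀ a : F4c, add4 (neg4 a) a = cF 0 := by decide +kernel
theorem mul4_assoc : ∀ a b c : F4c, mul4 (mul4 a b) c = mul4 a (mul4 b c) := by decide +kernel
theorem mul4_comm : ∀ a b : F4c, mul4 a b = mul4 b a := by decide +kernel
theorem one_mul4 : ∀ a : F4c, mul4 (cF 1) a = a := by decide +kernel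
theorem mul4_one : ∀ a : F4c, mul4 a (cF 1) = a := by decide +kernel
theorem zero_mul4 : ∀ a : F4c, mul4 (cF 0) a = cF 0 := by decide +kernel
theorem mul4_zero : ∀ a : F4c, mul4 a (cF 0) = cF 0 := by decide +kernel
theorem mul4_add4 : ∀ a b c : F4c, mul4 a (add4 b c) = add4 (mul4 a b) (mul4 a c) := by
  decide +kernel
theorem add4_mul4 : ∀ a b c : F4c, mul4 (add4 a b) c = add4 (mul4 a c) (mul4 b c) := by
  decide +kernel
theorem mul4_inv4 : ∀ a : F4c, a ≠ cF 0 → mul4 a (inv4 a) = cF 1 := by decide +kernel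

instance : Zero F4c := ⟨cF 0⟩
instance : One F4c := ⟨cF 1⟩
instance : Add F4c := ⟨add4⟩
instance : Mul F4c := ⟨mul4⟩
instance : Neg F4c := ⟨neg4⟩
instance : Sub F4c := ⟨fun a b => add4 a (neg4 b)⟩

instance : CommRing F4c where
  add_assoc := add4_assoc
  zero_add := zero_add4
  add_zero := add4_zero
  nsmul := nsmulRec
  sub_eq_add_neg := fun _ _ => rfl
  zsmul := zsmulRec
  neg_add_cancel := neg4_add4
  add_comm := add4_comm
  left_distrib := mul4_add4
  right_distrib := add4_mul4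
  zero_mul := zero_mul4
  mul_zero := mul4_zero
  mul_assoc := mul4_assoc
  one_mul := one_mul4
  mul_one := mul4_one
  mul_comm := mul4_comm

instance : Field F4c where
  inv := inv4
  exists_pair_ne := ⟨cF 0, cF 1, by decide⟩
  mul_inv_cancel := mul4_inv4
  inv_zero := by decide +kernel
  nnqsmul := _
  nnqsmul_def := fun _ _ => rfl
  qsmul := _
  qsmul_def := fun _ _ => rfl

theorem card_F4c : Fintype.card F4c = 4 := Fintype.card_fin 4

theorem add4_def (a b : F4c) : a + b = add4 a b := rfl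
theorem mul4_def (a b : F4c) : a * b = mul4 a b := rfl

theorem add_self4 (a : F4c) : a + a = 0 := neg4_add4 a

theorem vF_cF {u : ℕ} (hu : u < 4) : vF (cF u) = u := Nat.mod_eq_of_lt hu

theorem cF_xor {u v : ℕ} (hu : u < 4) (hv : v < 4) : cF (Nat.xor u v) = cF u + cF v := by
  rw [add4_def, add4, vF_cF hu, vF_cF hv]

theorem cF_fm {u v : ℕ} (hu : u < 4) (hv : v < 4) : cF (fm u v) = cF u * cF v := by
  rw [mul4_def, mul4, vF_cF hu, vF_cF hv]

theorem fm_lt (u v : ℕ) : fm u v < 4 := by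
  unfold fm
  exact Nat.lt_succ_of_le Nat.and_le_right

theorem xor_lt4 {u v : ℕ} (hu : u < 4) (hv : v < 4) : Nat.xor u v < 4 :=
  Nat.xor_lt_two_pow (n := 2) hu hv

theorem cF_inj {u v : ℕ} (hu : u < 4) (hv : v < 4) (h : cF u = cF v) : u = v := by
  have := congrArg vF h
  rwa [vF_cF hu, vF_cF hv] at this

/-- the sum (exclusive or) of `f 0, ..., f (n-1)` -/
def dotX (f : ℕ → ℕ) : ℕ → ℕ
  | 0 => 0
  | n + 1 => Nat.xor (dotX f n) (f n)

theorem dotX_lt (f : ℕ → ℕ) (h : ∀ k, f k < 4) : ∀ n, dotX f n < 4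
  | 0 => by norm_num [dotX]
  | n + 1 => xor_lt4 (dotX_lt f h n) (h n)

theorem cF_dotX (f : ℕ → ℕ) (h : ∀ k, f k < 4) :
    ∀ n, cF (dotX f n) = ∑ k ∈ Finset.range n, cF (f k)
  | 0 => rfl
  | n + 1 => by
    rw [Finset.sum_range_succ, ← cF_dotX f h n]
    exact cF_xor (dotX_lt f h n) (h n)

/-- base 4 digit number `n` of `x` -/
def dg (x n : ℕ) : ℕ := Nat.land (Nat.shiftRight x (Nat.mul 2 n)) 3

theorem dg_eq (x n : ℕ) : dg x n = x / 4 ^ n % 4 := by
  unfold dg
  change (x >>> (2 * n)) &&& 3 = _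
  rw [Nat.shiftRight_eq_div_pow, pow_mul]
  exact Nat.and_two_pow_sub_one_eq_mod _ 2

theorem dg_lt (x n : ℕ) : dg x n < 4 := by
  rw [dg_eq]
  exact Nat.mod_lt _ (by norm_num)
theorem mod_pow_eq_of_digits (a b : ℕ) (n : ℕ) (h : ∀ p < n, a / 4 ^ p % 4 = b / 4 ^ p % 4) :
    a % 4 ^ n = b % 4 ^ n := by
  induction n with
  | zero => simp [Nat.mod_one]
  | succ n ih =>
    rw [Nat.mod_pow_succ, Nat.mod_pow_succ, ih (fun p hp => h p (by omega)), h n (by omega)]


/-! ### the 14 × 14 block (digits from 0) -/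

abbrev MatA := Matrix (Fin 14) (Fin 14) F4c

/-- the matrix coded by the digits from 0 on -/
def toA (x : ℕ) : MatA := Matrix.of fun i j => cF (dg x (0 + 14 * i.val + j.val))

/-- the term number `k` of entry `(i, j)` of the product -/
def termA (x y i j k : ℕ) : ℕ := fm (dg x (0 + 14 * i + k)) (dg y (0 + 14 * k + j))

/-- entry `(i, j)` of the product -/
def entA (x y i j : ℕ) : ℕ :=
  (Nat.xor (Nat.xor (Nat.xor (Nat.xor (Nat.xor (Nat.xor (Nat.xor (Nat.xor (Nat.xor (Nat.xor (Nat.xor (Nat.xor (Nat.xor (Nat.xor 0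
    (fm (dg x (Nat.add (Nat.add 0 (Nat.mul 14 i)) 0)) (dg y (Nat.add (Nat.add 0 (Nat.mul 14 0)) j))))
    (fm (dg x (Nat.add (Nat.add 0 (Nat.mul 14 i)) 1)) (dg y (Nat.add (Nat.add 0 (Nat.mul 14 1)) j))))
    (fm (dg x (Nat.add (Nat.add 0 (Nat.mul 14 i)) 2)) (dg y (Nat.add (Nat.add 0 (Nat.mul 14 2)) j))))
    (fm (dg x (Nat.add (Nat.add 0 (Nat.mul 14 i)) 3)) (dg y (Nat.add (Nat.add 0 (Nat.mul 14 3)) j))))
    (fm (dg x (Nat.add (Nat.add 0 (Nat.mul 14 i)) 4)) (dg y (Nat.add (Nat.add 0 (Nat.mul 14 4)) j))))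
    (fm (dg x (Nat.add (Nat.add 0 (Nat.mul 14 i)) 5)) (dg y (Nat.add (Nat.add 0 (Nat.mul 14 5)) j))))
    (fm (dg x (Nat.add (Nat.add 0 (Nat.mul 14 i)) 6)) (dg y (Nat.add (Nat.add 0 (Nat.mul 14 6)) j))))
    (fm (dg x (Nat.add (Nat.add 0 (Nat.mul 14 i)) 7)) (dg y (Nat.add (Nat.add 0 (Nat.mul 14 7)) j))))
    (fm (dg x (Nat.add (Nat.add 0 (Nat.mul 14 i)) 8)) (dg y (Nat.add (Nat.add 0 (Nat.mul 14 8)) j))))
    (fm (dg x (Nat.add (Nat.add 0 (Nat.mul 14 i)) 9)) (dg y (Nat.add (Nat.add 0 (Nat.mul 14 9)) j))))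
    (fm (dg x (Nat.add (Nat.add 0 (Nat.mul 14 i)) 10)) (dg y (Nat.add (Nat.add 0 (Nat.mul 14 10)) j))))
    (fm (dg x (Nat.add (Nat.add 0 (Nat.mul 14 i)) 11)) (dg y (Nat.add (Nat.add 0 (Nat.mul 14 11)) j))))
    (fm (dg x (Nat.add (Nat.add 0 (Nat.mul 14 i)) 12)) (dg y (Nat.add (Nat.add 0 (Nat.mul 14 12)) j))))
    (fm (dg x (Nat.add (Nat.add 0 (Nat.mul 14 i)) 13)) (dg y (Nat.add (Nat.add 0 (Nat.mul 14 13)) j))))

theorem entA_eq (x y i j : ℕ) : entA x y i j = dotX (termA x y i j) 14 := rfl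

theorem entA_lt (x y i j : ℕ) : entA x y i j < 4 := by
  rw [entA_eq]
  exact dotX_lt _ (fun k => fm_lt _ _) _

/-- row `i` of the product -/
def rowA (x y i : ℕ) : ℕ :=
  Nat.add (entA x y i 0) (Nat.mul 4 (Nat.add (entA x y i 1) (Nat.mul 4 (Nat.add (entA x y i 2) (Nat.mul 4 (Nat.add (entA x y i 3) (Nat.mul 4 (Nat.add (entA x y i 4) (Nat.mul 4 (Nat.add (entA x y i 5) (Nat.mul 4 (Nat.add (entA x y i 6) (Nat.mul 4 (Nat.add (entA x y i 7) (Nat.mul 4 (Nat.add (entA x y i 8) (Nat.mul 4 (Nat.add (entA x y i 9) (Nat.mul 4 (Nat.add (entA x y i 10) (Nat.mul 4 (Nat.add (entA x y i 11) (Nat.mul 4 (Nat.add (entA x y i 12) (Nat.mul 4 (entA x y i 13))))))))))))))))))))))))))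

/-- the packed product of the block -/
def mulA (x y : ℕ) : ℕ :=
  Nat.add (rowA x y 0) (Nat.mul 268435456 (Nat.add (rowA x y 1) (Nat.mul 268435456 (Nat.add (rowA x y 2) (Nat.mul 268435456 (Nat.add (rowA x y 3) (Nat.mul 268435456 (Nat.add (rowA x y 4) (Nat.mul 268435456 (Nat.add (rowA x y 5) (Nat.mul 268435456 (Nat.add (rowA x y 6) (Nat.mul 268435456 (Nat.add (rowA x y 7) (Nat.mul 268435456 (Nat.add (rowA x y 8) (Nat.mul 268435456 (Nat.add (rowA x y 9) (Nat.mul 268435456 (Nat.add (rowA x y 10) (Nat.mul 268435456 (Nat.add (rowA x y 11) (Nat.mul 268435456 (Nat.add (rowA x y 12) (Nat.mul 268435456 (rowA x y 13))))))))))))))))))))))))))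

theorem rowA_eq (x y i : ℕ) : rowA x y i = horner 4 [entA x y i 0, entA x y i 1, entA x y i 2, entA x y i 3, entA x y i 4, entA x y i 5, entA x y i 6, entA x y i 7, entA x y i 8, entA x y i 9, entA x y i 10, entA x y i 11, entA x y i 12, entA x y i 13] := by
  simp only [horner, mul_zero, add_zero]
  rfl

theorem mulA_eq (x y : ℕ) : mulA x y = horner (4 ^ 14) [rowA x y 0, rowA x y 1, rowA x y 2, rowA x y 3, rowA x y 4, rowA x y 5, rowA x y 6, rowA x y 7, rowA x y 8, rowA x y 9, rowA x y 10, rowA x y 11, rowA x y 12, rowA x y 13] := by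
  simp only [horner, mul_zero, add_zero]
  rfl

theorem rowA_lt (x y i : ℕ) : rowA x y i < 4 ^ 14 := by
  rw [rowA_eq]
  refine horner_lt 4 _ ?_
  intro c hc
  simp only [List.mem_cons, List.not_mem_nil, or_false] at hc
  rcases hc with h | h | h | h | h | h | h | h | h | h | h | h | h | h <;> (rw [h]; exact entA_lt _ _ _ _)

theorem mulA_lt (x y : ℕ) : mulA x y < 4 ^ 196 := by
  rw [mulA_eq]
  have h := horner_lt (4 ^ 14) [rowA x y 0, rowA x y 1, rowA x y 2, rowA x y 3, rowA x y 4, rowA x y 5, rowA x y 6, rowA x y 7, rowA x y 8, rowA x y 9, rowA x y 10, rowA x y 11, rowA x y 12, rowA x y 13] (by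
    intro c hc
    simp only [List.mem_cons, List.not_mem_nil, or_false] at hc
    rcases hc with h | h | h | h | h | h | h | h | h | h | h | h | h | h <;> (rw [h]; exact rowA_lt _ _ _))
  simp only [List.length_cons, List.length_nil] at h
  rw [← pow_mul] at h
  exact h

theorem rowA_digit (x y i j : ℕ) (hj : j < 14) : rowA x y i / 4 ^ j % 4 = entA x y i j := by
  rw [rowA_eq, horner_digit]
  · interval_cases j <;> simp only [List.getD_cons_succ, List.getD_cons_zero]
  · intro c hc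
    simp only [List.mem_cons, List.not_mem_nil, or_false] at hc
    rcases hc with h | h | h | h | h | h | h | h | h | h | h | h | h | h <;> (rw [h]; exact entA_lt _ _ _ _)

theorem mulA_row (x y i : ℕ) (hi : i < 14) : mulA x y / (4 ^ 14) ^ i % 4 ^ 14 = rowA x y i := by
  rw [mulA_eq, horner_digit]
  · interval_cases i <;> simp only [List.getD_cons_succ, List.getD_cons_zero]
  · intro c hc
    simp only [List.mem_cons, List.not_mem_nil, or_false] at hc
    rcases hc with h | h | h | h | h | h | h | h | h | h | h | h | h | h <;> (rw [h]; exact rowA_lt _ _ _)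

theorem dg_mulA (x y i j : ℕ) (hi : i < 14) (hj : j < 14) :
    dg (mulA x y) (14 * i + j) = entA x y i j := by
  rw [dg_eq, ← rowA_digit x y i j hj, ← mulA_row x y i hi]
  rw [pow_add, pow_mul, ← Nat.div_div_eq_div_mul]
  generalize mulA x y / (4 ^ 14) ^ i = m
  rw [← Nat.mod_mul_right_div_self, ← Nat.mod_mul_right_div_self (m % 4 ^ 14)]
  congr 1
  have hd : 4 ^ j * 4 ∣ 4 ^ 14 := by
    rw [← pow_succ]
    exact pow_dvd_pow 4 (by omega)
  exact (Nat.mod_mod_of_dvd m hd).symm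

theorem cF_entA (x y i j : ℕ) : cF (entA x y i j) =
    ∑ k ∈ Finset.range 14, cF (dg x (0 + 14 * i + k)) * cF (dg y (0 + 14 * k + j)) := by
  rw [entA_eq, cF_dotX (termA x y i j) (fun k => fm_lt _ _)]
  apply Finset.sum_congr rfl
  intro k _
  exact cF_fm (dg_lt _ _) (dg_lt _ _)


/-! ### a faster product for the first block: rows are combined by exclusive or -/

/-- row `k` of the first block (14 digits) -/
def rowOf (y k : ℕ) : ℕ := Nat.land (Nat.shiftRight y (Nat.mul 28 k)) 268435455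

theorem rowOf_eq (y k : ℕ) : rowOf y k = y / (4 ^ 14) ^ k % 4 ^ 14 := by
  unfold rowOf
  change (y >>> (28 * k)) &&& 268435455 = _
  rw [Nat.shiftRight_eq_div_pow, pow_mul]
  exact Nat.and_two_pow_sub_one_eq_mod _ 28

theorem rowOf_lt (y k : ℕ) : rowOf y k < 2 ^ 28 := by
  rw [rowOf_eq]
  exact Nat.mod_lt _ (by norm_num)

theorem dg_rowOf (y k j : ℕ) (hj : j < 14) : dg (rowOf y k) j = dg y (14 * k + j) := by
  rw [dg_eq, dg_eq, rowOf_eq, pow_add, pow_mul, ← Nat.div_div_eq_div_mul]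
  generalize y / (4 ^ 14) ^ k = m
  rw [← Nat.mod_mul_right_div_self (m % 4 ^ 14), ← Nat.mod_mul_right_div_self m]
  congr 1
  have hd : 4 ^ j * 4 ∣ 4 ^ 14 := by
    rw [← pow_succ]
    exact pow_dvd_pow 4 (by omega)
  exact Nat.mod_mod_of_dvd m hd

/-- the row multiplied by `ω` -/
def wRow (r : ℕ) : ℕ :=
  Nat.add (fm 2 (dg r 0)) (Nat.mul 4 (Nat.add (fm 2 (dg r 1)) (Nat.mul 4 (Nat.add (fm 2 (dg r 2)) (Nat.mul 4 (Nat.add (fm 2 (dg r 3)) (Nat.mul 4 (Nat.add (fm 2 (dg r 4)) (Nat.mul 4 (Nat.add (fm 2 (dg r 5)) (Nat.mul 4 (Nat.add (fm 2 (dg r 6)) (Nat.mul 4 (Nat.add (fm 2 (dg r 7)) (Nat.mul 4 (Nat.add (fm 2 (dg r 8)) (Nat.mul 4 (Nat.add (fm 2 (dg r 9)) (Nat.mul 4 (Nat.add (fm 2 (dg r 10)) (Nat.mul 4 (Nat.add (fm 2 (dg r 11)) (Nat.mul 4 (Nat.add (fm 2 (dg r 12)) (Nat.mul 4 (fm 2 (dg r 13)))))))))))))))))))))))))))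

theorem wRow_eq (r : ℕ) : wRow r = horner 4 [fm 2 (dg r 0), fm 2 (dg r 1), fm 2 (dg r 2), fm 2 (dg r 3), fm 2 (dg r 4), fm 2 (dg r 5), fm 2 (dg r 6), fm 2 (dg r 7), fm 2 (dg r 8), fm 2 (dg r 9), fm 2 (dg r 10), fm 2 (dg r 11), fm 2 (dg r 12), fm 2 (dg r 13)] := by
  simp only [horner, mul_zero, add_zero]
  rfl

theorem wRow_lt (r : ℕ) : wRow r < 2 ^ 28 := by
  rw [wRow_eq]
  have h := horner_lt 4 [fm 2 (dg r 0), fm 2 (dg r 1), fm 2 (dg r 2), fm 2 (dg r 3), fm 2 (dg r 4), fm 2 (dg r 5), fm 2 (dg r 6), fm 2 (dg r 7), fm 2 (dg r 8), fm 2 (dg r 9), fm 2 (dg r 10), fm 2 (dg r 11), fm 2 (dg r 12), fm 2 (dg r 13)] (by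
    intro c hc
    simp only [List.mem_cons, List.not_mem_nil, or_false] at hc
    rcases hc with h | h | h | h | h | h | h | h | h | h | h | h | h | h <;> (rw [h]; exact fm_lt _ _))
  simp only [List.length_cons, List.length_nil] at h
  norm_num at h ⊢
  exact h

theorem dg_wRow (r j : ℕ) (hj : j < 14) : dg (wRow r) j = fm 2 (dg r j) := by
  rw [dg_eq, wRow_eq, horner_digit]
  · interval_cases j <;> simp only [List.getD_cons_succ, List.getD_cons_zero]
  · intro c hc
    simp only [List.mem_cons, List.not_mem_nil, or_false] at hc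
    rcases hc with h | h | h | h | h | h | h | h | h | h | h | h | h | h <;> (rw [h]; exact fm_lt _ _)

/-- the multiple of a row `r` by the scalar `a`, given `w = ω r` -/
def sm (a r w : ℕ) : ℕ := Nat.xor (Nat.mul (Nat.land a 1) r) (Nat.mul (Nat.shiftRight a 1) w)

theorem dg_xor (a b n : ℕ) : dg (Nat.xor a b) n = Nat.xor (dg a n) (dg b n) := by
  unfold dg
  change ((a ^^^ b) >>> (2 * n)) &&& 3 = ((a >>> (2 * n)) &&& 3) ^^^ ((b >>> (2 * n)) &&& 3)
  rw [Nat.shiftRight_xor_distrib, Nat.and_xor_distrib_right]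

theorem dg_zero (n : ℕ) : dg 0 n = 0 := by
  rw [dg_eq]
  simp

theorem fm_facts : ∀ d < 4, fm 0 d = 0 ∧ fm 1 d = d ∧ fm 3 d = Nat.xor d (fm 2 d) := by decide

theorem dg_sm (a r w j : ℕ) (ha : a < 4) (hw : dg w j = fm 2 (dg r j)) :
    dg (sm a r w) j = fm a (dg r j) := by
  obtain ⟨f0, f1, f3⟩ := fm_facts (dg r j) (dg_lt r j)
  interval_cases a
  · have e : sm 0 r w = 0 := by
      change Nat.xor (0 * r) (0 * w) = 0
      rw [zero_mul, zero_mul]
      rfl
    rw [e, dg_zero, f0]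
  · have e : sm 1 r w = r := by
      change Nat.xor (1 * r) (0 * w) = r
      rw [one_mul, zero_mul]
      exact Nat.xor_zero r
    rw [e, f1]
  · have e : sm 2 r w = w := by
      change Nat.xor (0 * r) (1 * w) = w
      rw [one_mul, zero_mul]
      exact Nat.zero_xor w
    rw [e, hw]
  · have e : sm 3 r w = Nat.xor r w := by
      change Nat.xor (1 * r) (1 * w) = Nat.xor r w
      rw [one_mul, one_mul]
    rw [e, dg_xor, hw, f3]

theorem sm_lt (a r w : ℕ) (ha : a < 4) (hr : r < 2 ^ 28) (hw : w < 2 ^ 28) : sm a r w < 2 ^ 28 := by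
  interval_cases a
  · change Nat.xor (0 * r) (0 * w) < 2 ^ 28
    rw [zero_mul, zero_mul]
    exact Nat.xor_lt_two_pow (by norm_num) (by norm_num)
  · change Nat.xor (1 * r) (0 * w) < 2 ^ 28
    rw [one_mul, zero_mul]
    exact Nat.xor_lt_two_pow hr (by norm_num)
  · change Nat.xor (0 * r) (1 * w) < 2 ^ 28
    rw [one_mul, zero_mul]
    exact Nat.xor_lt_two_pow (by norm_num) hw
  · change Nat.xor (1 * r) (1 * w) < 2 ^ 28
    rw [one_mul, one_mul]
    exact Nat.xor_lt_two_pow hr hw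

theorem dotX_lt' (f : ℕ → ℕ) (m : ℕ) (h : ∀ k, f k < 2 ^ m) : ∀ n, dotX f n < 2 ^ m
  | 0 => by
    change 0 < 2 ^ m
    positivity
  | n + 1 => Nat.xor_lt_two_pow (dotX_lt' f m h n) (h n)

theorem dg_dotX (f : ℕ → ℕ) (j : ℕ) : ∀ n, dg (dotX f n) j = dotX (fun k => dg (f k) j) n
  | 0 => dg_zero j
  | n + 1 => by
    change dg (Nat.xor (dotX f n) (f n)) j = Nat.xor (dotX (fun k => dg (f k) j) n) (dg (f n) j)
    rw [dg_xor, dg_dotX f j n]

theorem dotX_congr (f g : ℕ → ℕ) (h : ∀ k, f k = g k) : ∀ n, dotX f n = dotX g n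
  | 0 => rfl
  | n + 1 => by
    change Nat.xor (dotX f n) (f n) = Nat.xor (dotX g n) (g n)
    rw [dotX_congr f g h n, h n]

/-- term `k` of row `i` of the product -/
def rterm (x y i k : ℕ) : ℕ := sm (dg x (14 * i + k)) (rowOf y k) (wRow (rowOf y k))

/-- row `i` of the product -/
def rowF (x y i : ℕ) : ℕ :=
  (Nat.xor (Nat.xor (Nat.xor (Nat.xor (Nat.xor (Nat.xor (Nat.xor (Nat.xor (Nat.xor (Nat.xor (Nat.xor (Nat.xor (Nat.xor (Nat.xor 0
    (sm (dg x (Nat.add (Nat.mul 14 i) 0)) (rowOf y 0) (wRow (rowOf y 0))))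
    (sm (dg x (Nat.add (Nat.mul 14 i) 1)) (rowOf y 1) (wRow (rowOf y 1))))
    (sm (dg x (Nat.add (Nat.mul 14 i) 2)) (rowOf y 2) (wRow (rowOf y 2))))
    (sm (dg x (Nat.add (Nat.mul 14 i) 3)) (rowOf y 3) (wRow (rowOf y 3))))
    (sm (dg x (Nat.add (Nat.mul 14 i) 4)) (rowOf y 4) (wRow (rowOf y 4))))
    (sm (dg x (Nat.add (Nat.mul 14 i) 5)) (rowOf y 5) (wRow (rowOf y 5))))
    (sm (dg x (Nat.add (Nat.mul 14 i) 6)) (rowOf y 6) (wRow (rowOf y 6))))
    (sm (dg x (Nat.add (Nat.mul 14 i) 7)) (rowOf y 7) (wRow (rowOf y 7))))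
    (sm (dg x (Nat.add (Nat.mul 14 i) 8)) (rowOf y 8) (wRow (rowOf y 8))))
    (sm (dg x (Nat.add (Nat.mul 14 i) 9)) (rowOf y 9) (wRow (rowOf y 9))))
    (sm (dg x (Nat.add (Nat.mul 14 i) 10)) (rowOf y 10) (wRow (rowOf y 10))))
    (sm (dg x (Nat.add (Nat.mul 14 i) 11)) (rowOf y 11) (wRow (rowOf y 11))))
    (sm (dg x (Nat.add (Nat.mul 14 i) 12)) (rowOf y 12) (wRow (rowOf y 12))))
    (sm (dg x (Nat.add (Nat.mul 14 i) 13)) (rowOf y 13) (wRow (rowOf y 13))))

theorem rowF_eq (x y i : ℕ) : rowF x y i = dotX (rterm x y i) 14 := rfl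

theorem rowF_lt (x y i : ℕ) : rowF x y i < 2 ^ 28 := by
  rw [rowF_eq]
  exact dotX_lt' _ 28 (fun k => sm_lt _ _ _ (dg_lt _ _) (rowOf_lt _ _) (wRow_lt _)) _

theorem dg_rowF (x y i j : ℕ) (hj : j < 14) : dg (rowF x y i) j = entA x y i j := by
  rw [rowF_eq, dg_dotX, entA_eq]
  apply dotX_congr
  intro k
  change dg (sm (dg x (14 * i + k)) (rowOf y k) (wRow (rowOf y k))) j = termA x y i j k
  rw [dg_sm _ _ _ _ (dg_lt _ _) (dg_wRow _ _ hj), dg_rowOf _ _ _ hj]
  simp only [termA, zero_add]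

theorem rowF_eq_rowA (x y i : ℕ) : rowF x y i = rowA x y i := by
  have h := mod_pow_eq_of_digits (rowF x y i) (rowA x y i) 14 (by
    intro p hp
    rw [← dg_eq, dg_rowF x y i p hp, rowA_digit x y i p hp])
  have h1 : rowF x y i < 4 ^ 14 := by
    have := rowF_lt x y i
    norm_num at this ⊢
    exact this
  rwa [Nat.mod_eq_of_lt h1, Nat.mod_eq_of_lt (rowA_lt x y i)] at h

/-- the packed product of the first block, fast version -/
def mulF (x y : ℕ) : ℕ :=
  Nat.add (rowF x y 0) (Nat.mul 268435456 (Nat.add (rowF x y 1) (Nat.mul 268435456 (Nat.add (rowF x y 2) (Nat.mul 268435456 (Nat.add (rowF x y 3) (Nat.mul 268435456 (Nat.add (rowF x y 4) (Nat.mul 268435456 (Nat.add (rowF x y 5) (Nat.mul 268435456 (Nat.add (rowF x y 6) (Nat.mul 268435456 (Nat.add (rowF x y 7) (Nat.mul 268435456 (Nat.add (rowF x y 8) (Nat.mul 268435456 (Nat.add (rowF x y 9) (Nat.mul 268435456 (Nat.add (rowF x y 10) (Nat.mul 268435456 (Nat.add (rowF x y 11) (Nat.mul 268435456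 (Nat.add (rowF x y 12) (Nat.mul 268435456 (rowF x y 13))))))))))))))))))))))))))

theorem mulF_eq_mulA (x y : ℕ) : mulF x y = mulA x y := by
  rw [mulA_eq]
  have e : mulF x y = horner (4 ^ 14) [rowF x y 0, rowF x y 1, rowF x y 2, rowF x y 3, rowF x y 4, rowF x y 5, rowF x y 6, rowF x y 7, rowF x y 8, rowF x y 9, rowF x y 10, rowF x y 11, rowF x y 12, rowF x y 13] := by
    simp only [horner, mul_zero, add_zero]
    rfl
  rw [e]
  simp only [rowF_eq_rowA]


/-! ### the 6 × 6 block (digits from 196) -/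

abbrev MatB := Matrix (Fin 6) (Fin 6) F4c

/-- the matrix coded by the digits from 196 on -/
def toB (x : ℕ) : MatB := Matrix.of fun i j => cF (dg x (196 + 6 * i.val + j.val))

/-- the term number `k` of entry `(i, j)` of the product -/
def termB (x y i j k : ℕ) : ℕ := fm (dg x (196 + 6 * i + k)) (dg y (196 + 6 * k + j))

/-- entry `(i, j)` of the product -/
def entB (x y i j : ℕ) : ℕ :=
  (Nat.xor (Nat.xor (Nat.xor (Nat.xor (Nat.xor (Nat.xor 0
    (fm (dg x (Nat.add (Nat.add 196 (Nat.mul 6 i)) 0)) (dg y (Nat.add (Nat.add 196 (Nat.mul 6 0)) j))))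
    (fm (dg x (Nat.add (Nat.add 196 (Nat.mul 6 i)) 1)) (dg y (Nat.add (Nat.add 196 (Nat.mul 6 1)) j))))
    (fm (dg x (Nat.add (Nat.add 196 (Nat.mul 6 i)) 2)) (dg y (Nat.add (Nat.add 196 (Nat.mul 6 2)) j))))
    (fm (dg x (Nat.add (Nat.add 196 (Nat.mul 6 i)) 3)) (dg y (Nat.add (Nat.add 196 (Nat.mul 6 3)) j))))
    (fm (dg x (Nat.add (Nat.add 196 (Nat.mul 6 i)) 4)) (dg y (Nat.add (Nat.add 196 (Nat.mul 6 4)) j))))
    (fm (dg x (Nat.add (Nat.add 196 (Nat.mul 6 i)) 5)) (dg y (Nat.add (Nat.add 196 (Nat.mul 6 5)) j))))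

theorem entB_eq (x y i j : ℕ) : entB x y i j = dotX (termB x y i j) 6 := rfl

theorem entB_lt (x y i j : ℕ) : entB x y i j < 4 := by
  rw [entB_eq]
  exact dotX_lt _ (fun k => fm_lt _ _) _

/-- row `i` of the product -/
def rowB (x y i : ℕ) : ℕ :=
  Nat.add (entB x y i 0) (Nat.mul 4 (Nat.add (entB x y i 1) (Nat.mul 4 (Nat.add (entB x y i 2) (Nat.mul 4 (Nat.add (entB x y i 3) (Nat.mul 4 (Nat.add (entB x y i 4) (Nat.mul 4 (entB x y i 5))))))))))

/-- the packed product of the block -/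
def mulB (x y : ℕ) : ℕ :=
  Nat.add (rowB x y 0) (Nat.mul 4096 (Nat.add (rowB x y 1) (Nat.mul 4096 (Nat.add (rowB x y 2) (Nat.mul 4096 (Nat.add (rowB x y 3) (Nat.mul 4096 (Nat.add (rowB x y 4) (Nat.mul 4096 (rowB x y 5))))))))))

theorem rowB_eq (x y i : ℕ) : rowB x y i = horner 4 [entB x y i 0, entB x y i 1, entB x y i 2, entB x y i 3, entB x y i 4, entB x y i 5] := by
  simp only [horner, mul_zero, add_zero]
  rfl

theorem mulB_eq (x y : ℕ) : mulB x y = horner (4 ^ 6) [rowB x y 0, rowB x y 1, rowB x y 2, rowB x y 3, rowB x y 4, rowB x y 5] := by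
  simp only [horner, mul_zero, add_zero]
  rfl

theorem rowB_lt (x y i : ℕ) : rowB x y i < 4 ^ 6 := by
  rw [rowB_eq]
  refine horner_lt 4 _ ?_
  intro c hc
  simp only [List.mem_cons, List.not_mem_nil, or_false] at hc
  rcases hc with h | h | h | h | h | h <;> (rw [h]; exact entB_lt _ _ _ _)

theorem mulB_lt (x y : ℕ) : mulB x y < 4 ^ 36 := by
  rw [mulB_eq]
  have h := horner_lt (4 ^ 6) [rowB x y 0, rowB x y 1, rowB x y 2, rowB x y 3, rowB x y 4, rowB x y 5] (by
    intro c hc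
    simp only [List.mem_cons, List.not_mem_nil, or_false] at hc
    rcases hc with h | h | h | h | h | h <;> (rw [h]; exact rowB_lt _ _ _))
  simp only [List.length_cons, List.length_nil] at h
  rw [← pow_mul] at h
  exact h

theorem rowB_digit (x y i j : ℕ) (hj : j < 6) : rowB x y i / 4 ^ j % 4 = entB x y i j := by
  rw [rowB_eq, horner_digit]
  · interval_cases j <;> simp only [List.getD_cons_succ, List.getD_cons_zero]
  · intro c hc
    simp only [List.mem_cons, List.not_mem_nil, or_false] at hc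
    rcases hc with h | h | h | h | h | h <;> (rw [h]; exact entB_lt _ _ _ _)

theorem mulB_row (x y i : ℕ) (hi : i < 6) : mulB x y / (4 ^ 6) ^ i % 4 ^ 6 = rowB x y i := by
  rw [mulB_eq, horner_digit]
  · interval_cases i <;> simp only [List.getD_cons_succ, List.getD_cons_zero]
  · intro c hc
    simp only [List.mem_cons, List.not_mem_nil, or_false] at hc
    rcases hc with h | h | h | h | h | h <;> (rw [h]; exact rowB_lt _ _ _)

theorem dg_mulB (x y i j : ℕ) (hi : i < 6) (hj : j < 6) :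
    dg (mulB x y) (6 * i + j) = entB x y i j := by
  rw [dg_eq, ← rowB_digit x y i j hj, ← mulB_row x y i hi]
  rw [pow_add, pow_mul, ← Nat.div_div_eq_div_mul]
  generalize mulB x y / (4 ^ 6) ^ i = m
  rw [← Nat.mod_mul_right_div_self, ← Nat.mod_mul_right_div_self (m % 4 ^ 6)]
  congr 1
  have hd : 4 ^ j * 4 ∣ 4 ^ 6 := by
    rw [← pow_succ]
    exact pow_dvd_pow 4 (by omega)
  exact (Nat.mod_mod_of_dvd m hd).symm

theorem cF_entB (x y i j : ℕ) : cF (entB x y i j) =
    ∑ k ∈ Finset.range 6, cF (dg x (196 + 6 * i + k)) * cF (dg y (196 + 6 * k + j)) := by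
  rw [entB_eq, cF_dotX (termB x y i j) (fun k => fm_lt _ _)]
  apply Finset.sum_congr rfl
  intro k _
  exact cF_fm (dg_lt _ _) (dg_lt _ _)


/-! ### the pair model -/

theorem dg_add_low (a b n : ℕ) (hn : n < 196) : dg (a + 4 ^ 196 * b) n = dg a n := by
  rw [dg_eq, dg_eq]
  have e : (4 : ℕ) ^ 196 = 4 ^ n * (4 * 4 ^ (195 - n)) := by
    rw [← pow_succ', ← pow_add]
    congr 1
    omega
  rw [e, mul_assoc, Nat.add_mul_div_left _ _ (by positivity), mul_assoc,
    Nat.add_mul_mod_self_left]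

theorem dg_add_high (a b m : ℕ) (ha : a < 4 ^ 196) : dg (a + 4 ^ 196 * b) (196 + m) = dg b m := by
  rw [dg_eq, dg_eq, pow_add, ← Nat.div_div_eq_div_mul, Nat.add_mul_div_left _ _ (by positivity),
    Nat.div_eq_of_lt ha, zero_add]

/-- `4 ^ 196` -/
def B196 : ℕ := 10086913586276986678343434265636765134100413253239154346994763111486904773503285916522052161250538404046496765518544896

theorem B196_eq : B196 = 4 ^ 196 := by
  unfold B196
  norm_num

/-- the packed product of pairs -/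
def mulP (x y : ℕ) : ℕ := Nat.add (mulF x y) (Nat.mul B196 (mulB x y))

theorem mulP_eq (x y : ℕ) : mulP x y = mulA x y + 4 ^ 196 * mulB x y := by
  rw [← B196_eq, ← mulF_eq_mulA]
  rfl

theorem toA_of_pair (a b : ℕ) : toA (a + 4 ^ 196 * b) = toA a := by
  ext i j
  simp only [toA, Matrix.of_apply]
  rw [dg_add_low _ _ _ (by have := i.isLt; have := j.isLt; omega)]

theorem toB_of_pair (a b : ℕ) (ha : a < 4 ^ 196) : toB (a + 4 ^ 196 * b) = toB (4 ^ 196 * b) := by
  ext i j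
  simp only [toB, Matrix.of_apply]
  rw [add_assoc, dg_add_high _ _ _ ha]
  have h := dg_add_high 0 b (6 * i.val + j.val) (by positivity)
  rw [zero_add] at h
  rw [h]

theorem toA_mulA (x y : ℕ) : toA (mulA x y) = toA x * toA y := by
  ext i j
  rw [Matrix.mul_apply]
  have hs : ∑ k : Fin 14, toA x i k * toA y k j =
      ∑ k ∈ Finset.range 14, cF (dg x (0 + 14 * i.val + k)) * cF (dg y (0 + 14 * k + j.val)) :=
    Fin.sum_univ_eq_sum_range
      (fun k => cF (dg x (0 + 14 * i.val + k)) * cF (dg y (0 + 14 * k + j.val))) 14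
  rw [hs, ← cF_entA]
  simp only [toA, Matrix.of_apply]
  rw [zero_add, dg_mulA x y i.val j.val i.isLt j.isLt]

theorem toA_mulP (x y : ℕ) : toA (mulP x y) = toA x * toA y := by
  rw [mulP_eq, toA_of_pair, toA_mulA]

theorem toB_mulP (x y : ℕ) : toB (mulP x y) = toB x * toB y := by
  ext i j
  rw [Matrix.mul_apply]
  have hs : ∑ k : Fin 6, toB x i k * toB y k j =
      ∑ k ∈ Finset.range 6, cF (dg x (196 + 6 * i.val + k)) * cF (dg y (196 + 6 * k + j.val)) :=
    Fin.sum_univ_eq_sum_range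
      (fun k => cF (dg x (196 + 6 * i.val + k)) * cF (dg y (196 + 6 * k + j.val))) 6
  rw [hs, ← cF_entB]
  simp only [toB, Matrix.of_apply]
  rw [mulP_eq, add_assoc, dg_add_high _ _ _ (mulA_lt x y), dg_mulB x y i.val j.val i.isLt j.isLt]

abbrev MatP := MatA × MatB

/-- the pair of matrices coded by a natural number -/
def toP (x : ℕ) : MatP := (toA x, toB x)

/-- the packed identity pair -/
def oneP : ℕ := 11909252541948941858108474043308232800687172565003352211324893532746084496348266680570832019470904973639944341214380554498660016303116386305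
/-- the packed identity of the first block -/
def oneA : ℕ := 2521728398917789254546942521118719782918566245902573801663234147343039762458737040831439240642369768934420657706369025

theorem toA_oneA : toA oneA = 1 := by decide +kernel

theorem toP_oneP : toP oneP = 1 := by
  have h : toA oneP = 1 ∧ toB oneP = 1 := by decide +kernel
  exact Prod.ext h.1 h.2

/-- reduction to the 232 significant digits -/
def canon (x : ℕ) : ℕ := Nat.mod x (Nat.pow 4 232)
/-- reduction to the 196 digits of the first block -/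
def canonA (x : ℕ) : ℕ := Nat.mod x (Nat.pow 4 196)

theorem digitA_eq (a b : ℕ) (h : toA a = toA b) (p : ℕ) (hp : p < 196) : dg a p = dg b p := by
  have h2 := congrFun (congrFun h ⟨p / 14, by omega⟩) ⟨p % 14, Nat.mod_lt _ (by norm_num)⟩
  simp only [toA, Matrix.of_apply] at h2
  rw [zero_add, Nat.div_add_mod] at h2
  exact cF_inj (dg_lt _ _) (dg_lt _ _) h2

theorem digitB_eq (a b : ℕ) (h : toB a = toB b) (p : ℕ) (h1 : 196 ≤ p) (hp : p < 232) :
    dg a p = dg b p := by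
  have h2 := congrFun (congrFun h ⟨(p - 196) / 6, by omega⟩)
    ⟨(p - 196) % 6, Nat.mod_lt _ (by norm_num)⟩
  simp only [toB, Matrix.of_apply] at h2
  rw [add_assoc, Nat.div_add_mod, Nat.add_sub_cancel' h1] at h2
  exact cF_inj (dg_lt _ _) (dg_lt _ _) h2

theorem canonA_eq (a b : ℕ) (h : toA a = toA b) : canonA a = canonA b := by
  apply mod_pow_eq_of_digits
  intro p hp
  rw [← dg_eq, ← dg_eq]
  exact digitA_eq a b h p hp

theorem canon_eq (a b : ℕ) (h : toP a = toP b) : canon a = canon b := by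
  apply mod_pow_eq_of_digits
  intro p hp
  rw [← dg_eq, ← dg_eq]
  rcases Nat.lt_or_ge p 196 with h1 | h1
  · exact digitA_eq a b (congrArg Prod.fst h) p h1
  · exact digitB_eq a b (congrArg Prod.snd h) p h1 hp

/-- the model of packed pairs -/
def model : Model MatP where
  toM := toP
  mulP := mulP
  oneP := oneP
  key := canon
  toM_mul := fun x y => Prod.ext (toA_mulP x y) (toB_mulP x y)
  toM_one := toP_oneP
  key_eq := canon_eq

/-- the model of the first block -/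
def modelA : Model MatA where
  toM := toA
  mulP := mulF
  oneP := oneA
  key := canonA
  toM_mul := fun x y => by rw [mulF_eq_mulA]; exact toA_mulA x y
  toM_one := toA_oneA
  key_eq := canonA_eq

attribute [irreducible] mulA mulB mulF

end Cfsg.Agent.Lib.Helper60.G24
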