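import Cfsg.Agent.Lib.Helper60.G24.F4

/-!
Checks used by the generated data for `G₂(4)`: keys of columns of the first block, bounds, sorted
tables.
-/

set_option autoImplicit false

namespace Cfsg.Agent.Lib.Helper60.G24

open Cfsg.Agent.Lib.Helper60.Cert
open Cfsg.Agent.Lib.Helper60.J1 (horner horner_lt horner_digit)

/-- the key of column `c` of the first block -/
def colK (c x : ℕ) : ℕ :=
  Nat.add (dg x (Nat.add 0 c)) (Nat.mul 4 (Nat.add (dg x (Nat.add 14 c)) (Nat.mul 4 (Nat.add (dg x (Nat.add 28 c)) (Nat.mul 4 (Nat.add (dg x (Nat.add 42 c)) (Nat.mul 4 (Nat.add (dg x (Nat.add 56 c)) (Nat.mul 4 (Nat.add (dg x (Nat.add 70 c)) (Nat.mul 4 (Nat.add (dg x (Nat.add 84 c)) (Nat.mul 4 (Nat.add (dg x (Nat.add 98 c)) (Nat.mul 4 (Nat.add (dg x (Nat.add 112 c)) (Nat.mul 4 (Nat.add (dg x (Nat.add 126 c)) (Nat.mul 4 (Nat.add (dg x (Nat.add 140 c)) (Nat.mul 4 (Nat.add (dg x (Nat.add 154 c)) (Nat.mul 4 (Nat.add (dg x (Nat.add 168 c)) (Nat.mul 4 (dg x (Nat.add 182 c)))))))))))))))))))))))))))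

theorem colK_eq (c x : ℕ) : colK c x = horner 4 [dg x (0 + c), dg x (14 + c), dg x (28 + c), dg x (42 + c), dg x (56 + c), dg x (70 + c), dg x (84 + c), dg x (98 + c), dg x (112 + c), dg x (126 + c), dg x (140 + c), dg x (154 + c), dg x (168 + c), dg x (182 + c)] := by
  simp only [horner, mul_zero, add_zero]
  rfl

theorem colK_digit (c x r : ℕ) (hr : r < 14) : colK c x / 4 ^ r % 4 = dg x (14 * r + c) := by
  rw [colK_eq, horner_digit]
  · interval_cases r <;> simp only [List.getD_cons_succ, List.getD_cons_zero]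
  · intro d hd
    simp only [List.mem_cons, List.not_mem_nil, or_false] at hd
    rcases hd with h | h | h | h | h | h | h | h | h | h | h | h | h | h <;> (rw [h]; exact dg_lt _ _)

/-- column `c` of a matrix -/
def colA (c : Fin 14) (M : MatA) : Fin 14 → F4c := fun r => M r c

theorem colA_of_colK (c : Fin 14) (a b : ℕ) (h : colK c.val a = colK c.val b) :
    colA c (toA a) = colA c (toA b) := by
  funext r
  have h1 : dg a (14 * r.val + c.val) = dg b (14 * r.val + c.val) := by
    rw [← colK_digit c.val a r.val r.isLt, ← colK_digit c.val b r.val r.isLt, h]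
  simp only [colA, toA, Matrix.of_apply, zero_add]
  rw [h1]

theorem colK_of_colA (c : Fin 14) (a b : ℕ) (h : colA c (toA a) = colA c (toA b)) :
    colK c.val a = colK c.val b := by
  have h1 : ∀ r < 14, dg a (14 * r + c.val) = dg b (14 * r + c.val) := by
    intro r hr
    have h2 := congrFun h ⟨r, hr⟩
    simp only [colA, toA, Matrix.of_apply, zero_add] at h2
    exact cF_inj (dg_lt _ _) (dg_lt _ _) h2
  rw [colK_eq, colK_eq]
  have e : ∀ r < 14, dg a (14 * r + c.val) = dg b (14 * r + c.val) := h1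
  have e0 := e 0 (by norm_num); have e1 := e 1 (by norm_num); have e2 := e 2 (by norm_num)
  have e3 := e 3 (by norm_num); have e4 := e 4 (by norm_num); have e5 := e 5 (by norm_num)
  have e6 := e 6 (by norm_num); have e7 := e 7 (by norm_num); have e8 := e 8 (by norm_num)
  have e9 := e 9 (by norm_num); have e10 := e 10 (by norm_num); have e11 := e 11 (by norm_num)
  have e12 := e 12 (by norm_num); have e13 := e 13 (by norm_num)
  norm_num at e0 e1 e2 e3 e4 e5 e6 e7 e8 e9 e10 e11 e12 e13
  simp only [zero_add]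
  rw [e0, e1, e2, e3, e4, e5, e6, e7, e8, e9, e10, e11, e12, e13]

theorem colA_mul (c : Fin 14) (A B : MatA) (h : colA c B = colA c 1) :
    colA c (A * B) = colA c A := by
  funext r
  have hB : ∀ k, B k c = (1 : MatA) k c := fun k => congrFun h k
  simp only [colA, Matrix.mul_apply]
  rw [Finset.sum_congr rfl (fun k _ => by rw [hB k])]
  simp [Matrix.one_apply]

/-- injectivity through a sorting permutation of keys -/
theorem inj_of_sorted_key (key : ℕ → ℕ) (N : ℕ) (ord pos : ℕ → ℕ)
    (hpos : ∀ j < N, pos j < N ∧ ord (pos j) = j)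
    (hlt : ∀ k, k + 1 < N → key (ord k) < key (ord (k + 1))) :
    ∀ i < N, ∀ j < N, key i = key j → i = j := by
  have mono : ∀ a b, a < b → b < N → key (ord a) < key (ord b) := by
    intro a b hab
    induction b with
    | zero => omega
    | succ b ih =>
      intro hb
      rcases Nat.lt_succ_iff_lt_or_eq.mp hab with h | h
      · exact lt_trans (ih h (by omega)) (hlt b hb)
      · rw [h]; exact hlt b hb
  intro i hi j hj hk
  obtain ⟨hpi, hoi⟩ := hpos i hi
  obtain ⟨hpj, hoj⟩ := hpos j hj
  rcases Nat.lt_trichotomy (pos i) (pos j) with h1 | h1 | h1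
  · have := mono _ _ h1 hpj
    rw [hoi, hoj, hk] at this
    exact absurd this (lt_irrefl _)
  · rw [← hoi, ← hoj, h1]
  · have := mono _ _ h1 hpi
    rw [hoi, hoj, hk] at this
    exact absurd this (lt_irrefl _)

/-! ### checks -/

/-- bounds of the indices of the Schreier elements of the first level -/
def chkB1 (jj kk : ℕ → ℕ → ℕ) (i : ℕ) : Bool :=
  allBelow (fun l => Nat.blt (jj l i) 1024 && Nat.blt (kk l i) 60) 2

/-- bounds of the indices of the Schreier elements of the second level -/
def chkB2 (k2 : ℕ → ℕ → ℕ) (j : ℕ) : Bool := allBelow (fun l => Nat.blt (k2 l j) 60) 3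

/-- the element number `j` fixes the basis vector number `c` -/
def chkFix (c : ℕ) (T : ℕ → ℕ) (j : ℕ) : Bool := Nat.beq (colK c (T j)) (colK c oneP)

/-- `pos` is a right inverse of `ord` -/
def chkPos (ord pos : ℕ → ℕ) (N j : ℕ) : Bool := Nat.blt (pos j) N && Nat.beq (ord (pos j)) j

/-- the keys of column `c` increase along `ord` -/
def chkSort (c : ℕ) (T ord : ℕ → ℕ) (k : ℕ) : Bool :=
  Nat.blt (colK c (T (ord k))) (colK c (T (ord (Nat.succ k))))

/-- the root element number `n` is the first component of an element of the tables -/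
def chkRoot (C1 C2 T gN ri rj rk : ℕ → ℕ) (n : ℕ) : Bool :=
  Nat.beq (mulF (C1 (ri n)) (mulP (C2 (rj n)) (T (rk n)))) (gN n) && Nat.blt (ri n) 4095 &&
    Nat.blt (rj n) 1024 && Nat.blt (rk n) 60

/-- inverse certificate -/
def chkInv (g gi : ℕ → ℕ) (l : ℕ) : Bool :=
  Nat.beq (mulP (g l) (gi l)) oneP && Nat.beq (mulP (gi l) (g l)) oneP

end Cfsg.Agent.Lib.Helper60.G24
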