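import Mathlib
import Cfsg.Agent.Lib.Helper60.U34.Semi

/-!
Extensions `A ⋊ L` of a finite group `L` of order 251596800 by an elementary abelian 2-group on
which the elements of orders 7 and 13 have no fixed point: the prime graph is that of `L` as
soon as `L` has elements of orders 6 and 10.
-/

set_option autoImplicit false

namespace Cfsg.Agent.Lib.Helper60.G24

open Cfsg.Agent.Lib.Helper60.U34 (exists_conj_zpowers)

section lin

variable {L : Type*} [Group L] {A : Type*} [CommGroup A] (φ : L →* MulAut A)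

/-- the semidirect product -/
abbrev BigL := A ⋊[φ] L

theorem sq_of_ker (h2 : ∀ x : A, x ^ 2 = 1) (x : BigL φ) (hx : x.right = 1) : x ^ 2 = 1 := by
  have e : x = SemidirectProduct.inl x.left := by
    apply SemidirectProduct.ext
    · rfl
    · rw [hx]; rfl
  rw [e, ← map_pow, h2, map_one]

theorem right_pow (g : BigL φ) (n : ℕ) : (g ^ n).right = g.right ^ n :=
  map_pow (SemidirectProduct.rightHom : BigL φ →* L) g n

theorem orderOf_right_dvd (g : BigL φ) : orderOf g.right ∣ orderOf g :=
  orderOf_map_dvd (SemidirectProduct.rightHom : BigL φ →* L) g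

theorem orderOf_dvd_right (h2 : ∀ x : A, x ^ 2 = 1) (g : BigL φ) :
    orderOf g ∣ orderOf g.right * 2 := by
  apply orderOf_dvd_of_pow_eq_one
  rw [pow_mul]
  apply sq_of_ker φ h2
  rw [right_pow, pow_orderOf_eq_one]

/-- an element of the kernel commuting with an element acting without fixed points is trivial -/
theorem eq_one_of_comm (g z : BigL φ) (hfix : ∀ x, φ g.right x = x → x = 1) (hz : z.right = 1)
    (hc : g * z = z * g) : z = 1 := by
  have hl : g.left * φ g.right z.left = z.left * φ z.right g.left :=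
    congrArg SemidirectProduct.left hc
  have hone : φ z.right g.left = g.left := by
    rw [hz, map_one]
    rfl
  rw [hone] at hl
  have hl2 : φ g.right z.left = z.left := by
    have h3 : g.left * φ g.right z.left = g.left * z.left := by
      rw [hl, mul_comm]
    exact mul_left_cancel h3
  have h0 := hfix _ hl2
  apply SemidirectProduct.ext
  · exact h0
  · exact hz

theorem pow_of_fpf (g : BigL φ) (hfix : ∀ x, φ g.right x = x → x = 1) :
    g ^ orderOf g.right = 1 := by
  apply eq_one_of_comm φ g (g ^ orderOf g.right) hfix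
  · rw [right_pow, pow_orderOf_eq_one]
  · exact (pow_mul_comm' g _).symm

theorem prime_of_card {q : ℕ} (hq : q.Prime) (h : q ∣ 251596800) :
    q = 2 ∨ q = 3 ∨ q = 5 ∨ q = 7 ∨ q = 13 := by
  have e : (251596800 : ℕ) = 2 ^ 12 * 3 ^ 3 * 5 ^ 2 * 7 * 13 := by norm_num
  rw [e] at h
  rcases (Nat.Prime.dvd_mul hq).mp h with h | h
  · rcases (Nat.Prime.dvd_mul hq).mp h with h | h
    · rcases (Nat.Prime.dvd_mul hq).mp h with h | h
      · rcases (Nat.Prime.dvd_mul hq).mp h with h | h
        · left
          exact (Nat.prime_dvd_prime_iff_eq hq Nat.prime_two).mp (hq.dvd_of_dvd_pow h)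
        · right; left
          exact (Nat.prime_dvd_prime_iff_eq hq Nat.prime_three).mp (hq.dvd_of_dvd_pow h)
      · right; right; left
        exact (Nat.prime_dvd_prime_iff_eq hq Nat.prime_five).mp (hq.dvd_of_dvd_pow h)
    · right; right; right; left
      exact (Nat.prime_dvd_prime_iff_eq hq (by norm_num)).mp h
  · right; right; right; right
    exact (Nat.prime_dvd_prime_iff_eq hq (by norm_num)).mp h

theorem key2 [Finite L] (h2 : ∀ x : A, x ^ 2 = 1) (hcard : Nat.card L = 251596800)
    (hfpf : ∀ l : L, (orderOf l = 7 ∨ orderOf l = 13) → ∀ x, φ l x = x → x = 1)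
    (h6 : ∃ g : L, orderOf g = 6) (h10 : ∃ g : L, orderOf g = 10)
    (g : BigL φ) (q : ℕ) (hq : q.Prime) (hq2 : q ≠ 2) (h : orderOf g = 2 * q) :
    ∃ l : L, orderOf l = 2 * q := by
  have d1 := orderOf_right_dvd φ g
  have d2 := orderOf_dvd_right φ h2 g
  rw [h] at d1 d2
  have hc : Nat.Coprime q 2 := (Nat.coprime_primes hq Nat.prime_two).mpr hq2
  have d3 : q ∣ orderOf g.right :=
    hc.dvd_of_dvd_mul_right (dvd_trans (dvd_mul_left q 2) d2)
  obtain ⟨t, ht⟩ := d3
  have ht2 : t ∣ 2 := by
    rw [ht, mul_comm 2 q] at d1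
    exact Nat.dvd_of_mul_dvd_mul_left hq.pos d1
  rcases (Nat.dvd_prime Nat.prime_two).mp ht2 with h1 | h1
  · rw [h1, mul_one] at ht
    have hqL : q ∣ Nat.card L := by
      rw [← ht]
      exact orderOf_dvd_natCard _
    rw [hcard] at hqL
    rcases prime_of_card hq hqL with h3 | h3 | h3 | h3 | h3
    · exact absurd h3 hq2
    · obtain ⟨g', hg'⟩ := h6
      exact ⟨g', by rw [hg', h3]⟩
    · obtain ⟨g', hg'⟩ := h10
      exact ⟨g', by rw [hg', h3]⟩
    · exfalso
      rw [h3] at ht
      have hp := pow_of_fpf φ g (hfpf _ (Or.inl ht))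
      rw [ht] at hp
      have hd := orderOf_dvd_of_pow_eq_one hp
      rw [h, h3] at hd
      norm_num at hd
    · exfalso
      rw [h3] at ht
      have hp := pow_of_fpf φ g (hfpf _ (Or.inr ht))
      rw [ht] at hp
      have hd := orderOf_dvd_of_pow_eq_one hp
      rw [h, h3] at hd
      norm_num at hd
  · exact ⟨g.right, by rw [ht, h1, mul_comm]⟩

instance finite_BigL [Finite L] [Finite A] : Finite (BigL φ) :=
  Finite.of_equiv _ SemidirectProduct.equivProd.symm

theorem card_BigL [Finite L] [Finite A] :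
    Nat.card (BigL φ) = Nat.card A * Nat.card L := by
  rw [Nat.card_congr SemidirectProduct.equivProd, Nat.card_prod]

theorem card_A_pow [Finite A] (h2 : ∀ x : A, x ^ 2 = 1) : ∃ m : ℕ, Nat.card A = 2 ^ m := by
  have hV : IsPGroup 2 A := by
    intro x
    exact ⟨1, by rw [pow_one]; exact h2 x⟩
  have : Fact (Nat.Prime 2) := ⟨Nat.prime_two⟩
  exact IsPGroup.iff_card.mp hV

/-- the prime graph of `A ⋊ L` is that of `L` -/
theorem same_graph [Finite L] [Finite A] (h2 : ∀ x : A, x ^ 2 = 1)
    (hcard : Nat.card L = 251596800)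
    (hfpf : ∀ l : L, (orderOf l = 7 ∨ orderOf l = 13) → ∀ x, φ l x = x → x = 1)
    (h6 : ∃ g : L, orderOf g = 6) (h10 : ∃ g : L, orderOf g = 10) :
    (∀ p : ℕ, p.Prime → (p ∣ Nat.card L ↔ p ∣ Nat.card (BigL φ))) ∧
    ∀ p q : ℕ, p.Prime → q.Prime → p ≠ q →
      ((∃ g : L, orderOf g = p * q) ↔ ∃ g : BigL φ, orderOf g = p * q) := by
  constructor
  · intro p hp
    obtain ⟨m, hm⟩ := card_A_pow (A := A) h2
    rw [card_BigL, hm]
    constructor
    · intro h
      exact dvd_mul_of_dvd_right h _
    · intro h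
      rcases (Nat.Prime.dvd_mul hp).mp h with h | h
      · have hp2 : p = 2 :=
          (Nat.prime_dvd_prime_iff_eq hp Nat.prime_two).mp (hp.dvd_of_dvd_pow h)
        rw [hp2, hcard]
        norm_num
      · exact h
  · intro p q hp hq hpq
    constructor
    · rintro ⟨g, hg⟩
      refine ⟨SemidirectProduct.inr g, ?_⟩
      rw [orderOf_injective (SemidirectProduct.inr : L →* BigL φ)
        SemidirectProduct.inr_injective g, hg]
    · rintro ⟨g, hg⟩
      by_cases hp2 : p = 2
      · have hq2 : q ≠ 2 := fun h => hpq (by rw [hp2, h])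
        rw [hp2] at hg ⊢
        exact key2 φ h2 hcard hfpf h6 h10 g q hq hq2 hg
      · by_cases hq2 : q = 2
        · rw [hq2, mul_comm] at hg
          rw [hq2, mul_comm]
          exact key2 φ h2 hcard hfpf h6 h10 g p hp hp2 hg
        · have d1 := orderOf_right_dvd φ g
          have d2 := orderOf_dvd_right φ h2 g
          rw [hg] at d1 d2
          have hc : Nat.Coprime (p * q) 2 :=
            Nat.Coprime.mul_left ((Nat.coprime_primes hp Nat.prime_two).mpr hp2)
              ((Nat.coprime_primes hq Nat.prime_two).mpr hq2)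
          exact ⟨g.right, Nat.dvd_antisymm d1 (hc.dvd_of_dvd_mul_right d2)⟩

/-- elements fixing an element -/
def fixerL (x : A) : Subgroup L where
  carrier := {g | φ g x = x}
  mul_mem' := by
    intro a b ha hb
    change φ (a * b) x = x
    rw [map_mul, MulAut.mul_apply]
    change φ b x = x at hb
    rw [hb]
    exact ha
  one_mem' := by
    change φ 1 x = x
    rw [map_one]
    rfl
  inv_mem' := by
    intro a ha
    change φ a x = x at ha
    change φ a⁻¹ x = x
    have : φ a⁻¹ (φ a x) = x := by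
      rw [← MulAut.mul_apply, ← map_mul, inv_mul_cancel, map_one]
      rfl
    rwa [ha] at this

/-- if one element of prime order `p` has no fixed point and `p²` does not divide the group
order, no element of order `p` has a fixed point -/
theorem fpf_of_one [Finite L] (p : ℕ) [Fact p.Prime] (hc : ¬ p ^ 2 ∣ Nat.card L) (l0 : L)
    (hl0 : orderOf l0 = p) (h0 : ∀ x, φ l0 x = x → x = 1) :
    ∀ l : L, orderOf l = p → ∀ x, φ l x = x → x = 1 := by
  intro l hl v hfix
  obtain ⟨x, hx⟩ := exists_conj_zpowers p hc l0 l hl0 hl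
  have hord : orderOf (x * l0 * x⁻¹) = p := by
    rw [← hl0]
    exact (MulAut.conj x).orderOf_eq l0
  have hle : Subgroup.zpowers l ≤ Subgroup.zpowers (x * l0 * x⁻¹) := by
    rw [Subgroup.zpowers_le]; exact hx
  have heq : Subgroup.zpowers l = Subgroup.zpowers (x * l0 * x⁻¹) := by
    apply Subgroup.eq_of_le_of_card_ge hle
    rw [Nat.card_zpowers, Nat.card_zpowers, hord, hl]
  have hcm : x * l0 * x⁻¹ ∈ fixerL φ v := by
    have h1 : Subgroup.zpowers l ≤ fixerL φ v := by
      rw [Subgroup.zpowers_le]; exact hfix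
    apply h1
    rw [heq]
    exact Subgroup.mem_zpowers _
  have h2 : φ (x * l0 * x⁻¹) v = v := hcm
  rw [map_mul, map_mul, MulAut.mul_apply, MulAut.mul_apply] at h2
  have h3 : φ l0 (φ x⁻¹ v) = φ x⁻¹ v := by
    have := congrArg (φ x⁻¹) h2
    rw [← MulAut.mul_apply _ (φ x⁻¹) (φ x), ← map_mul, inv_mul_cancel, map_one] at this
    exact this
  have h4 := h0 _ h3
  have h5 := congrArg (φ x) h4
  rw [← MulAut.mul_apply, ← map_mul, mul_inv_cancel, map_one, map_one] at h5
  exact h5

/-- the action on `k` copies -/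
def phiK (k : ℕ) : L →* MulAut (Fin k → A) where
  toFun l := MulEquiv.piCongrRight (fun _ => φ l)
  map_one' := by
    apply MulEquiv.ext
    intro f
    funext c
    change φ 1 (f c) = f c
    rw [map_one]
    rfl
  map_mul' a b := by
    apply MulEquiv.ext
    intro f
    funext c
    change φ (a * b) (f c) = φ a (φ b (f c))
    rw [map_mul]
    rfl

theorem phiK_apply (k : ℕ) (l : L) (f : Fin k → A) (c : Fin k) :
    phiK φ k l f c = φ l (f c) := rfl

end lin

/-- groups of unbounded order with the prime graph of `L` -/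
theorem exists_graph {L : Type} [Group L] [Finite L] {A : Type} [CommGroup A] [Finite A]
    (φ : L →* MulAut A) (h2 : ∀ x : A, x ^ 2 = 1) (hA : 2 ≤ Nat.card A)
    (hcard : Nat.card L = 251596800)
    (hfpf : ∀ l : L, (orderOf l = 7 ∨ orderOf l = 13) → ∀ x, φ l x = x → x = 1)
    (h6 : ∃ g : L, orderOf g = 6) (h10 : ∃ g : L, orderOf g = 10) (N : ℕ) :
    ∃ (H : Type) (_ : Group H) (_ : Finite H), N < Nat.card H ∧
      ((∀ p : ℕ, p.Prime → (p ∣ Nat.card L ↔ p ∣ Nat.card H)) ∧
      (∀ p q : ℕ, p.Prime → q.Prime → p ≠ q →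
        ((∃ g : L, orderOf g = p * q) ↔ (∃ g : H, orderOf g = p * q)))) := by
  have h2K : ∀ f : Fin N → A, f ^ 2 = 1 := fun f => by
    funext c
    exact h2 (f c)
  have hfK : ∀ l : L, (orderOf l = 7 ∨ orderOf l = 13) →
      ∀ f : Fin N → A, phiK φ N l f = f → f = 1 := by
    intro l hl f hf
    funext c
    exact hfpf l hl (f c) (congrFun hf c)
  refine ⟨BigL (phiK φ N), inferInstance, inferInstance, ?_,
    same_graph (phiK φ N) h2K hcard hfK h6 h10⟩
  rw [card_BigL, Nat.card_fun, Nat.card_fin]
  have hL : 0 < Nat.card L := Nat.card_pos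
  calc N < 2 ^ N := Nat.lt_two_pow_self
    _ ≤ Nat.card A ^ N := Nat.pow_le_pow_left hA N
    _ ≤ Nat.card A ^ N * Nat.card L := Nat.le_mul_of_pos_right _ hL

/-- a copy of a finite group in the lowest universe -/
theorem exists_small_copy (G : Type*) [Group G] [Finite G] :
    ∃ (L : Type) (_ : Group L), Nonempty (G ≃* L) := by
  let f : G ≃ {i : ℕ // i < Nat.card G} := (Finite.equivFin G).trans Fin.equivSubtype
  let i : Group {i : ℕ // i < Nat.card G} := f.symm.group
  exact ⟨{i : ℕ // i < Nat.card G}, i, ⟨(f.symm.mulEquiv).symm⟩⟩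

end Cfsg.Agent.Lib.Helper60.G24
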