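import Cfsg.Agent.Lib.Helper60.G24.Chk
import Cfsg.Agent.Lib.Helper60.G24.Gens
import Cfsg.Agent.Lib.Helper60.G24.Semi

/-!
Groups of unbounded order with the prime graph of `G₂(4)`.  The Chevalley group (14 × 14
matrices) is identified with a group `Γ` of pairs (a 14 × 14 and a 6 × 6 matrix), generated by two
pairs; its order 251596800 = 4095 · 1024 · 60 is obtained from two levels of coset tables and the
table of the stabilizer of two vectors.  The second components give an action on a space with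
4096 elements on which the elements of orders 7 and 13 have no fixed point.
-/

set_option autoImplicit false

namespace Cfsg.Agent.Lib.Helper60.G24

open Cfsg Cfsg.Lie Cfsg.Agent.Lib.Helper60.Cert

open scoped Matrix

theorem ok_gNsq :
    allBelow (fun l => Nat.beq (modelA.mulP (gN l) (gN l)) modelA.oneP) 37 = true := by
  decide +kernel

theorem wA_lt : ∀ l < 2, ∀ k ∈ wA l, k < 37 := by decide

section field

variable {F : Type*} [Field F] [Fintype F] (e : F4c ≃+* F)

/-- the ambient group of pairs -/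
abbrev Amb (F : Type*) [Field F] := GLF F × GL (Fin 6) F4c

instance : Finite (GLF F) := inferInstance

/-- the packed-model homomorphism -/
def ψP : Amb F →* MatP := (ψA e).prodMap (Units.coeHom MatB)

theorem ψP_inj : Function.Injective (ψP e) := by
  intro a b h
  have h1 := congrArg Prod.fst h
  have h2 := congrArg Prod.snd h
  exact Prod.ext (ψA_inj e h1) (Units.ext h2)

/-- a packed pair with a packed inverse is the value of an element -/
theorem exists_of_inv {m m' : ℕ} (h1 : model.mulP m m' = model.oneP)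
    (h2 : model.mulP m' m = model.oneP) : ∃ g : Amb F, ψP e g = model.toM m := by
  have a1 : toP m * toP m' = 1 := by
    rw [← toP_oneP]
    exact ((model.toM_mul m m').symm.trans (congrArg toP h1))
  have a2 : toP m' * toP m = 1 := by
    rw [← toP_oneP]
    exact ((model.toM_mul m' m).symm.trans (congrArg toP h2))
  let uA : MatAˣ := ⟨toA m, toA m', congrArg Prod.fst a1, congrArg Prod.fst a2⟩
  let uB : MatBˣ := ⟨toB m, toB m', congrArg Prod.snd a1, congrArg Prod.snd a2⟩
  obtain ⟨g, hg⟩ := exists_of_unit e uA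
  exact ⟨(g, uB), Prod.ext hg rfl⟩

/-- the group generated by the two pairs -/
def Γ : Subgroup (Amb F) := genGrp model (ψP e) Ggen 2

theorem hexG : ∀ l < 2, ∃ g, ψP e g = model.toM (Ggen l) := by
  intro l hl
  have h := ok_inv l hl
  simp only [chkInv, Bool.and_eq_true] at h
  exact exists_of_inv e (Nat.eq_of_beq_eq_true h.1) (Nat.eq_of_beq_eq_true h.2)

theorem Ggen_real (k : ℕ) : Real model (ψP e) (Γ e) (Ggen k) := by
  rcases k with _ | k
  · exact gen_real (hexG e) 0 (by norm_num)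
  · exact gen_real (hexG e) 1 (by norm_num)

theorem Pgen_real : ∀ l < 3, Real model (ψP e) (Γ e) (Pgen l) := by
  intro l hl
  have h := allBelow_spec _ _ ok_pw l hl
  exact (Real.evalW Ggen (pw l) (fun k _ => Ggen_real e k)).of_eq (Nat.eq_of_beq_eq_true h)

/-- the stabilizer of a vector -/
def P1 : Subgroup (Amb F) := genGrp model (ψP e) Pgen 3
/-- the stabilizer of two vectors -/
def Lt : Subgroup (Amb F) := genGrp model (ψP e) Tgen 2

theorem hexP : ∀ l < 3, ∃ g, ψP e g = model.toM (Pgen l) := fun l hl => by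
  obtain ⟨g, _, hg⟩ := Pgen_real e l hl
  exact ⟨g, hg⟩

theorem Tgen_eq : ∀ l < 2, Tgen l = Pgen l := by
  intro l hl
  interval_cases l
  · exact ok_T01.1
  · exact ok_T01.2

theorem hexT : ∀ l < 2, ∃ g, ψP e g = model.toM (Tgen l) := fun l hl => by
  rw [Tgen_eq l hl]
  exact hexP e l (by omega)

theorem card_Lt : Nat.card (Lt e) = 60 := card_L (D := TL) TLok (ψP_inj e) (hexT e)

theorem TT_real : ∀ k < 60, Real model (ψP e) (Lt e) (TT k) := L_sup (D := TL) TLok (hexT e)

theorem Lt_le_P1 : Lt e ≤ P1 e := by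
  apply genGrp_le (ψP_inj e)
  intro l hl
  rw [Tgen_eq l hl]
  exact gen_real (hexP e) l (by omega)

theorem P1_le : P1 e ≤ Γ e := genGrp_le (ψP_inj e) (Γ e) (Pgen_real e)

theorem C2_real : ∀ j < 1024, Real model (ψP e) (P1 e) (C2T j) :=
  C_sup (D := C2D) C2ok (hexP e)

theorem card_P1_le : Nat.card (P1 e) ≤ 1024 * 60 := by
  have hw : ∀ l < 3, ∀ j < 1024, Real model (ψP e) (Lt e) (TT (k2 l j)) := by
    intro l hl j hj
    have h0 := ok_b2 j hj
    unfold chkB2 at h0
    have h := allBelow_spec _ _ h0 l hl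
    simp only [Nat.blt_eq] at h
    exact TT_real e _ h
  have h := card_C_le (D := C2D) C2ok (ψP_inj e) (Lt e) hw
  rw [card_Lt] at h
  exact h

theorem C1_real : ∀ i < 4095, Real model (ψP e) (Γ e) (C1T i) :=
  C_sup (D := C1D) C1ok (hexG e)

theorem card_Γ_le : Nat.card (Γ e) ≤ 251596800 := by
  have hw : ∀ l < 2, ∀ i < 4095,
      Real model (ψP e) (P1 e) (mulP (C2T (jj l i)) (TT (kk l i))) := by
    intro l hl i hi
    have h0 := ok_b1 i hi
    unfold chkB1 at h0
    have h := allBelow_spec _ _ h0 l hl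
    simp only [Bool.and_eq_true, Nat.blt_eq] at h
    exact (C2_real e _ h.1).mul ((TT_real e _ h.2).mono (Lt_le_P1 e))
  have h := card_C_le (D := C1D) C1ok (ψP_inj e) (P1 e) hw
  have h2 := card_P1_le e
  calc Nat.card (Γ e) ≤ 4095 * Nat.card (P1 e) := h
    _ ≤ 4095 * (1024 * 60) := Nat.mul_le_mul_left _ h2
    _ = 251596800 := by norm_num

/-! ### the elements of the tables are different -/

theorem toA_oneP : toA oneP = 1 := congrArg Prod.fst toP_oneP

theorem toA_fix {c : Fin 14} {x : ℕ} (h : Nat.beq (colK c.val x) (colK c.val oneP) = true) :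
    colA c (toA x) = colA c 1 := by
  rw [colA_of_colK c x oneP (Nat.eq_of_beq_eq_true h), toA_oneP]

theorem fixT13 : ∀ k < 60, colA 13 (toA (TT k)) = colA 13 1 :=
  fun k hk => toA_fix (c := 13) (ok_fixT13 k hk)

theorem fixT2 : ∀ k < 60, colA 2 (toA (TT k)) = colA 2 1 :=
  fun k hk => toA_fix (c := 2) (ok_fixT2 k hk)

theorem fixC2 : ∀ j < 1024, colA 13 (toA (C2T j)) = colA 13 1 :=
  fun j hj => toA_fix (c := 13) (ok_fixC2 j hj)

theorem key13_inj : ∀ i < 4095, ∀ i' < 4095,
    colA 13 (toA (C1T i)) = colA 13 (toA (C1T i')) → i = i' := by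
  intro i hi i' hi' h
  have hk : colK 13 (C1T i) = colK 13 (C1T i') := colK_of_colA 13 _ _ h
  refine inj_of_sorted_key (fun i => colK 13 (C1T i)) 4095 ord1 pos1 ?_ ?_ i hi i' hi' hk
  · intro j hj
    have h := ok_pos1 j hj
    simp only [chkPos, Bool.and_eq_true, Nat.blt_eq] at h
    exact ⟨h.1, Nat.eq_of_beq_eq_true h.2⟩
  · intro k hk
    have h := ok_sort1 k (by omega)
    simp only [chkSort, Nat.blt_eq] at h
    exact h

theorem key2_inj : ∀ j < 1024, ∀ j' < 1024,
    colA 2 (toA (C2T j)) = colA 2 (toA (C2T j')) → j = j' := by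
  intro i hi i' hi' h
  have hk : colK 2 (C2T i) = colK 2 (C2T i') := colK_of_colA 2 _ _ h
  refine inj_of_sorted_key (fun i => colK 2 (C2T i)) 1024 ord2 pos2 ?_ ?_ i hi i' hi' hk
  · intro j hj
    have h := ok_pos2 j hj
    simp only [chkPos, Bool.and_eq_true, Nat.blt_eq] at h
    exact ⟨h.1, Nat.eq_of_beq_eq_true h.2⟩
  · intro k hk
    have h := ok_sort2 k (by omega)
    simp only [chkSort, Nat.blt_eq] at h
    exact h

theorem TA_inj : ∀ k < 60, ∀ k' < 60, toA (TT k) = toA (TT k') → k = k' :=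
  inj_of_dist (μ := modelA) (D := TL) ok_distA

theorem exists_elems : ∃ (c : Fin 4095 → Amb F) (d : Fin 1024 → Amb F) (t : Fin 60 → Amb F),
    (∀ i, c i ∈ Γ e ∧ ψP e (c i) = toP (C1T i.val)) ∧
    (∀ j, d j ∈ P1 e ∧ ψP e (d j) = toP (C2T j.val)) ∧
    (∀ k, t k ∈ Lt e ∧ ψP e (t k) = toP (TT k.val)) := by
  choose c hc hcv using fun i : Fin 4095 => C1_real e i.val i.isLt
  choose d hd hdv using fun j : Fin 1024 => C2_real e j.val j.isLt
  choose t ht htv using fun k : Fin 60 => TT_real e k.val k.isLt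
  exact ⟨c, d, t, fun i => ⟨hc i, hcv i⟩, fun j => ⟨hd j, hdv j⟩, fun k => ⟨ht k, htv k⟩⟩

theorem first_inj (c : Fin 4095 → Amb F) (d : Fin 1024 → Amb F) (t : Fin 60 → Amb F)
    (hc : ∀ i, ψP e (c i) = toP (C1T i.val)) (hd : ∀ j, ψP e (d j) = toP (C2T j.val))
    (ht : ∀ k, ψP e (t k) = toP (TT k.val)) :
    ∀ (i i' : Fin 4095) (j j' : Fin 1024) (k k' : Fin 60),
      (c i * d j * t k).1 = (c i' * d j' * t k').1 → i = i' ∧ j = j' ∧ k = k' := by
  intro i i' j j' k k' h
  have hA : ∀ g : Amb F, ψA e g.1 = (ψP e g).1 := fun g => rfl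
  have eA : ∀ i j k, ψA e (c i * d j * t k).1 =
      toA (C1T i.val) * (toA (C2T j.val) * toA (TT k.val)) := by
    intro i j k
    rw [hA, map_mul, map_mul, hc, hd, ht, mul_assoc]
    rfl
  have e1 := congrArg (ψA e) h
  rw [eA, eA] at e1
  have col : ∀ (i : Fin 4095) (j : Fin 1024) (k : Fin 60),
      colA 13 (toA (C1T i.val) * (toA (C2T j.val) * toA (TT k.val))) =
        colA 13 (toA (C1T i.val)) := by
    intro i j k
    apply colA_mul
    rw [colA_mul 13 _ _ (fixT13 k.val k.isLt)]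
    exact fixC2 j.val j.isLt
  have h13 : colA 13 (toA (C1T i.val)) = colA 13 (toA (C1T i'.val)) := by
    rw [← col i j k, ← col i' j' k', e1]
  have hi : i = i' := Fin.ext (key13_inj _ i.isLt _ i'.isLt h13)
  subst hi
  have h2 : (d j * t k).1 = (d j' * t k').1 := by
    have h' : (c i).1 * (d j * t k).1 = (c i).1 * (d j' * t k').1 := by
      have e3 : ∀ j k, (c i * d j * t k).1 = (c i).1 * (d j * t k).1 := fun j k => by
        rw [mul_assoc]
        rfl
      rw [← e3, ← e3]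
      exact h
    exact mul_left_cancel h'
  have eB : ∀ j k, ψA e (d j * t k).1 = toA (C2T j.val) * toA (TT k.val) := by
    intro j k
    rw [hA, map_mul, hd, ht]
    rfl
  have e2 := congrArg (ψA e) h2
  rw [eB, eB] at e2
  have col2 : ∀ (j : Fin 1024) (k : Fin 60),
      colA 2 (toA (C2T j.val) * toA (TT k.val)) = colA 2 (toA (C2T j.val)) :=
    fun j k => colA_mul 2 _ _ (fixT2 k.val k.isLt)
  have h22 : colA 2 (toA (C2T j.val)) = colA 2 (toA (C2T j'.val)) := by
    rw [← col2 j k, ← col2 j' k', e2]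
  have hj : j = j' := Fin.ext (key2_inj _ j.isLt _ j'.isLt h22)
  subst hj
  have h3 : (t k).1 = (t k').1 := by
    have h' : (d j).1 * (t k).1 = (d j).1 * (t k').1 := h2
    exact mul_left_cancel h'
  have e3 := congrArg (ψA e) h3
  rw [hA, hA, ht, ht] at e3
  exact ⟨rfl, rfl, Fin.ext (TA_inj _ k.isLt _ k'.isLt e3)⟩

/-- the order of the group of pairs, and injectivity of the first projection -/
theorem card_and_inj :
    Nat.card (Γ e) = 251596800 ∧ ∀ x y : Γ e, x.1.1 = y.1.1 → x = y := by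
  obtain ⟨c, d, t, hc, hd, ht⟩ := exists_elems e
  have hmem : ∀ p : Fin 4095 × Fin 1024 × Fin 60, c p.1 * d p.2.1 * t p.2.2 ∈ Γ e := fun p =>
    (Γ e).mul_mem ((Γ e).mul_mem (hc p.1).1 (P1_le e (hd p.2.1).1))
      (P1_le e (Lt_le_P1 e (ht p.2.2).1))
  let Φ : Fin 4095 × Fin 1024 × Fin 60 → Γ e := fun p => ⟨c p.1 * d p.2.1 * t p.2.2, hmem p⟩
  have h1 : ∀ p q, (Φ p).1.1 = (Φ q).1.1 → p = q := by
    rintro ⟨i, j, k⟩ ⟨i', j', k'⟩ h
    obtain ⟨a1, a2, a3⟩ := first_inj e c d t (fun i => (hc i).2) (fun j => (hd j).2)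
      (fun k => (ht k).2) i i' j j' k k' h
    rw [a1, a2, a3]
  have hinj : Function.Injective Φ := fun p q h => h1 p q (by rw [h])
  have hcd : Nat.card (Fin 4095 × Fin 1024 × Fin 60) = 251596800 := by
    rw [Nat.card_prod, Nat.card_prod, Nat.card_fin, Nat.card_fin, Nat.card_fin]
  have hle : 251596800 ≤ Nat.card (Γ e) := by
    have := Nat.card_le_card_of_injective Φ hinj
    rwa [hcd] at this
  have hcard : Nat.card (Γ e) = 251596800 := le_antisymm (card_Γ_le e) hle
  refine ⟨hcard, ?_⟩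
  have hbij : Function.Bijective Φ :=
    hinj.bijective_of_nat_card_le (by rw [hcard, hcd])
  intro x y hxy
  obtain ⟨p, rfl⟩ := hbij.2 x
  obtain ⟨q, rfl⟩ := hbij.2 y
  rw [h1 p q hxy]

/-! ### the first projection is onto the Chevalley group -/

theorem hexN : ∀ l < 37, ∃ g : GLF F, ψA e g = modelA.toM (gN l) := by
  intro l hl
  have h := Nat.eq_of_beq_eq_true (allBelow_spec _ _ ok_gNsq l hl)
  have a : toA (gN l) * toA (gN l) = 1 := by
    rw [← toA_oneA]
    exact (modelA.toM_mul (gN l) (gN l)).symm.trans (congrArg toA h)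
  exact exists_of_unit e ⟨toA (gN l), toA (gN l), a, a⟩

theorem fst_mem (x : Amb F) (hx : x ∈ Γ e) : x.1 ∈ chevG2.group F := by
  have hle : Γ e ≤ (chevG2.group F).comap (MonoidHom.fst (GLF F) (GL (Fin 6) F4c)) := by
    apply genGrp_le (ψP_inj e)
    intro l hl
    obtain ⟨g, hg⟩ := hexG e l hl
    refine ⟨g, ?_, hg⟩
    rw [Subgroup.mem_comap]
    change g.1 ∈ chevG2.group F
    have h1 : ψA e g.1 = toA (GA l) := by
      have h0 : ψA e g.1 = toA (Ggen l) := congrArg Prod.fst hg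
      rw [h0]
      change toA (GA l + B196 * GB l) = toA (GA l)
      rw [B196_eq, toA_of_pair]
    have h2 := allBelow_spec _ _ ok_wA l hl
    rw [Nat.eq_of_beq_eq_true h2] at h1
    have h3 : Real modelA (ψA e) (chevG2.group F) (modelA.evalW gN (wA l)) := by
      rw [group_eq e]
      exact Real.evalW gN (wA l) (fun k hk => gen_real (hexN e) k (wA_lt l hl k hk))
    obtain ⟨g', hg', hgv'⟩ := h3
    have e' : g.1 = g' := ψA_inj e (by rw [h1, hgv']; rfl)
    rw [e']
    exact hg'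
  exact hle hx

theorem fst_surj (g : GLF F) (hg : g ∈ chevG2.group F) : ∃ x ∈ Γ e, x.1 = g := by
  have hle : chevG2.group F ≤ (Γ e).map (MonoidHom.fst (GLF F) (GL (Fin 6) F4c)) := by
    rw [group_eq e]
    apply genGrp_le (ψA_inj e)
    intro l hl
    rcases Nat.lt_or_ge l 36 with h36 | h36
    · have h := ok_root l h36
      simp only [chkRoot, Bool.and_eq_true, Nat.blt_eq] at h
      obtain ⟨⟨⟨h1, h2⟩, h3⟩, h4⟩ := h
      obtain ⟨c, hc, hcv⟩ := C1_real e _ h2
      obtain ⟨d, hd, hdv⟩ := C2_real e _ h3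
      obtain ⟨t, ht, htv⟩ := TT_real e _ h4
      refine ⟨(c * (d * t)).1, ⟨c * (d * t), (Γ e).mul_mem hc
        ((Γ e).mul_mem (P1_le e hd) (P1_le e (Lt_le_P1 e ht))), rfl⟩, ?_⟩
      change (ψP e (c * (d * t))).1 = toA (gN l)
      rw [map_mul, map_mul, hcv, hdv, htv, ← Nat.eq_of_beq_eq_true h1, mulF_eq_mulA, toA_mulA,
        toA_mulP]
      rfl
    · have h36' : l = 36 := by omega
      subst h36'
      refine ⟨1, Subgroup.one_mem _, ?_⟩
      rw [map_one]
      change 1 = toA (gN 36)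
      rw [gN36, toA_oneA]
  obtain ⟨x, hx, hxg⟩ := hle hg
  exact ⟨x, hx, hxg⟩

theorem iso_nonempty : Nonempty (↥(chevG2.group F) ≃* ↥(Γ e)) := by
  obtain ⟨_, hinj⟩ := card_and_inj e
  let f : ↥(Γ e) →* ↥(chevG2.group F) :=
    { toFun := fun x => ⟨x.1.1, fst_mem e x.1 x.2⟩
      map_one' := rfl
      map_mul' := fun x y => rfl }
  have hb : Function.Bijective f := by
    constructor
    · intro x y h
      exact hinj x y (congrArg Subtype.val h)
    · intro g
      obtain ⟨x, hx, hxg⟩ := fst_surj e g.1 g.2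
      exact ⟨⟨x, hx⟩, Subtype.ext hxg⟩
  exact ⟨(MulEquiv.ofBijective f hb).symm⟩

/-! ### elements of given orders -/

theorem pow_ne_one_of {g : Amb F} {m k : ℕ} (hg : ψP e g = model.toM m)
    (h : model.neq (model.powP m k) model.oneP = true) : g ^ k ≠ 1 := by
  intro h3
  have h4 := congrArg (ψP e) h3
  rw [map_pow, hg, ← model.toM_powP, map_one, ← model.toM_one] at h4
  exact model.toM_ne h h4

theorem order6 : ∃ g : ↥(Γ e), orderOf g = 6 := by
  obtain ⟨g, hg, hgv⟩ : Real model (ψP e) (Γ e) L6 :=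
    (Real.evalW Ggen wo6 (fun k _ => Ggen_real e k)).of_eq (Nat.eq_of_beq_eq_true ok_L6)
  refine ⟨⟨g, hg⟩, ?_⟩
  rw [Subgroup.orderOf_mk]
  apply orderOf_eq_of_pow_and_pow_div_prime (by norm_num)
    (pow_eq_one_of (μ := model) (ψP_inj e) hgv L6_pow)
  intro p hp hd
  have h23 : p = 2 ∨ p = 3 := by
    have h6 : p ∣ 2 * 3 := hd
    rcases (Nat.Prime.dvd_mul hp).mp h6 with h | h
    · left; exact (Nat.prime_dvd_prime_iff_eq hp Nat.prime_two).mp h
    · right; exact (Nat.prime_dvd_prime_iff_eq hp Nat.prime_three).mp h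
  rcases h23 with rfl | rfl
  · have e' : 6 / 2 = 3 := by norm_num
    rw [e']
    exact pow_ne_one_of e (k := 3) hgv L6_ne3
  · have e' : 6 / 3 = 2 := by norm_num
    rw [e']
    exact pow_ne_one_of e (k := 2) hgv L6_ne2

theorem order10 : ∃ g : ↥(Γ e), orderOf g = 10 := by
  obtain ⟨g, hg, hgv⟩ : Real model (ψP e) (Γ e) L10 :=
    (Real.evalW Ggen wo10 (fun k _ => Ggen_real e k)).of_eq (Nat.eq_of_beq_eq_true ok_L10)
  refine ⟨⟨g, hg⟩, ?_⟩
  rw [Subgroup.orderOf_mk]
  apply orderOf_eq_of_pow_and_pow_div_prime (by norm_num)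
    (pow_eq_one_of (μ := model) (ψP_inj e) hgv L10_pow)
  intro p hp hd
  have h25 : p = 2 ∨ p = 5 := by
    have h10 : p ∣ 2 * 5 := hd
    rcases (Nat.Prime.dvd_mul hp).mp h10 with h | h
    · left; exact (Nat.prime_dvd_prime_iff_eq hp Nat.prime_two).mp h
    · right; exact (Nat.prime_dvd_prime_iff_eq hp Nat.prime_five).mp h
  rcases h25 with rfl | rfl
  · have e' : 10 / 2 = 5 := by norm_num
    rw [e']
    exact pow_ne_one_of e (k := 5) hgv L10_ne5
  · have e' : 10 / 5 = 2 := by norm_num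
    rw [e']
    exact pow_ne_one_of e (k := 2) hgv L10_ne2

/-! ### the action on vectors -/

/-- the space of vectors, written multiplicatively -/
abbrev VecM := Multiplicative (Fin 6 → F4c)

/-- the action of an invertible matrix -/
def actB : GL (Fin 6) F4c →* MulAut VecM where
  toFun u := AddEquiv.toMultiplicative
    { toFun := fun v => (u : MatB) *ᵥ v
      invFun := fun v => ((u⁻¹ : GL (Fin 6) F4c) : MatB) *ᵥ v
      left_inv := fun v => by
        change ((u⁻¹ : GL (Fin 6) F4c) : MatB) *ᵥ ((u : MatB) *ᵥ v) = v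
        rw [Matrix.mulVec_mulVec, ← Units.val_mul, inv_mul_cancel, Units.val_one,
          Matrix.one_mulVec]
      right_inv := fun v => by
        change (u : MatB) *ᵥ (((u⁻¹ : GL (Fin 6) F4c) : MatB) *ᵥ v) = v
        rw [Matrix.mulVec_mulVec, ← Units.val_mul, mul_inv_cancel, Units.val_one,
          Matrix.one_mulVec]
      map_add' := fun v w => Matrix.mulVec_add _ v w }
  map_one' := by
    apply MulEquiv.ext
    intro x
    apply Multiplicative.toAdd.injective
    change ((1 : GL (Fin 6) F4c) : MatB) *ᵥ (Multiplicative.toAdd x) = Multiplicative.toAdd x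
    rw [Units.val_one, Matrix.one_mulVec]
  map_mul' a b := by
    apply MulEquiv.ext
    intro x
    apply Multiplicative.toAdd.injective
    change ((a * b : GL (Fin 6) F4c) : MatB) *ᵥ (Multiplicative.toAdd x) =
      (a : MatB) *ᵥ ((b : MatB) *ᵥ Multiplicative.toAdd x)
    rw [Units.val_mul, Matrix.mulVec_mulVec]

theorem actB_apply (u : GL (Fin 6) F4c) (x : VecM) :
    Multiplicative.toAdd (actB u x) = (u : MatB) *ᵥ Multiplicative.toAdd x := rfl

theorem fpf_of_cert {γ : Amb F} {Lc Nc : ℕ} (hγ : ψP e γ = toP Lc)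
    (hN : toB Nc * (toB Lc + 1) = 1) : ∀ x : VecM, actB γ.2 x = x → x = 1 := by
  intro x hx
  have h1 : (γ.2 : MatB) = toB Lc := congrArg Prod.snd hγ
  have h2 : toB Lc *ᵥ (Multiplicative.toAdd x) = Multiplicative.toAdd x := by
    rw [← h1, ← actB_apply, hx]
  have h3 : (toB Lc + 1) *ᵥ (Multiplicative.toAdd x) = 0 := by
    rw [Matrix.add_mulVec, h2, Matrix.one_mulVec]
    funext i
    exact add_self4 _
  have h4 : Multiplicative.toAdd x = 0 := by
    have h5 := congrArg (fun v => toB Nc *ᵥ v) h3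
    simp only [Matrix.mulVec_mulVec, hN, Matrix.one_mulVec, Matrix.mulVec_zero] at h5
    exact h5
  apply Multiplicative.toAdd.injective
  rw [h4]
  rfl

/-- the action of the group of pairs -/
def phiΓ : ↥(Γ e) →* MulAut VecM :=
  actB.comp ((MonoidHom.snd (GLF F) (GL (Fin 6) F4c)).comp (Γ e).subtype)

theorem fpfΓ : ∀ l : ↥(Γ e), (orderOf l = 7 ∨ orderOf l = 13) →
    ∀ x : VecM, phiΓ e l x = x → x = 1 := by
  have hcard := (card_and_inj e).1
  intro l hl
  rcases hl with hl | hl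
  · obtain ⟨g, hg, hgv⟩ : Real model (ψP e) (Γ e) L7 :=
      (Real.evalW Ggen wo7 (fun k _ => Ggen_real e k)).of_eq (Nat.eq_of_beq_eq_true ok_L7)
    have : Fact (Nat.Prime 7) := ⟨by norm_num⟩
    have ho : orderOf (⟨g, hg⟩ : ↥(Γ e)) = 7 := by
      rw [Subgroup.orderOf_mk]
      exact orderOf_eq_prime_of (μ := model) (ψP_inj e) hgv L7_pow L7_ne
    refine fpf_of_one (phiΓ e) 7 ?_ ⟨g, hg⟩ ho ?_ l hl
    · rw [hcard]
      norm_num
    · exact fpf_of_cert e hgv N7_ok
  · obtain ⟨g, hg, hgv⟩ : Real model (ψP e) (Γ e) L13 :=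
      (Real.evalW Ggen wo13 (fun k _ => Ggen_real e k)).of_eq (Nat.eq_of_beq_eq_true ok_L13)
    have : Fact (Nat.Prime 13) := ⟨by norm_num⟩
    have ho : orderOf (⟨g, hg⟩ : ↥(Γ e)) = 13 := by
      rw [Subgroup.orderOf_mk]
      exact orderOf_eq_prime_of (μ := model) (ψP_inj e) hgv L13_pow L13_ne
    refine fpf_of_one (phiΓ e) 13 ?_ ⟨g, hg⟩ ho ?_ l hl
    · rw [hcard]
      norm_num
    · exact fpf_of_cert e hgv N13_ok

end field

theorem sq_VecM : ∀ x : VecM, x ^ 2 = 1 := by
  intro x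
  apply Multiplicative.toAdd.injective
  rw [toAdd_pow, toAdd_one, two_nsmul]
  funext i
  exact add_self4 _

theorem card_VecM : 2 ≤ Nat.card VecM := by
  rw [Nat.card_congr Multiplicative.toAdd, Nat.card_fun, Nat.card_fin, Nat.card_eq_fintype_card,
    card_F4c]
  norm_num

/-- groups of unbounded order with the prime graph of `G₂(4)` -/
theorem main {F : Type*} [Field F] [Fintype F] (hF : Fintype.card F = 4) (N : ℕ) :
    ∃ (H : Type) (_ : Group H) (_ : Finite H), N < Nat.card H ∧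
      ((∀ p : ℕ, p.Prime → (p ∣ Nat.card ↥(Cfsg.Lie.chevG2.group F) ↔ p ∣ Nat.card H)) ∧
      (∀ p q : ℕ, p.Prime → q.Prime → p ≠ q →
        ((∃ g : ↥(Cfsg.Lie.chevG2.group F), orderOf g = p * q) ↔
          (∃ g : H, orderOf g = p * q)))) := by
  have e : F4c ≃+* F := FiniteField.ringEquivOfCardEq (by rw [card_F4c, hF])
  obtain ⟨i1⟩ := iso_nonempty e
  obtain ⟨L0, iL, ⟨f⟩⟩ := exists_small_copy ↥(Γ e)
  have iFin : Finite L0 := Finite.of_equiv _ f.toEquiv
  have hcard : Nat.card L0 = 251596800 := by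
    rw [← Nat.card_congr f.toEquiv]
    exact (card_and_inj e).1
  have hfpf : ∀ l : L0, (orderOf l = 7 ∨ orderOf l = 13) →
      ∀ x : VecM, ((phiΓ e).comp f.symm.toMonoidHom) l x = x → x = 1 := by
    intro l hl x hx
    refine fpfΓ e (f.symm l) ?_ x hx
    rw [MulEquiv.orderOf_eq]
    exact hl
  have h6 : ∃ g : L0, orderOf g = 6 := by
    obtain ⟨g, hg⟩ := order6 e
    exact ⟨f g, by rw [MulEquiv.orderOf_eq]; exact hg⟩
  have h10 : ∃ g : L0, orderOf g = 10 := by
    obtain ⟨g, hg⟩ := order10 e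
    exact ⟨f g, by rw [MulEquiv.orderOf_eq]; exact hg⟩
  obtain ⟨H, iG, iF, hN, h1, h2⟩ := exists_graph ((phiΓ e).comp f.symm.toMonoidHom) sq_VecM
    card_VecM hcard hfpf h6 h10 N
  refine ⟨H, iG, iF, hN, ?_, ?_⟩
  · intro p hp
    rw [Nat.card_congr (i1.trans f).toEquiv]
    exact h1 p hp
  · intro p q hp hq hpq
    rw [← h2 p q hp hq hpq]
    constructor
    · rintro ⟨g, hg⟩
      exact ⟨(i1.trans f) g, by rw [MulEquiv.orderOf_eq]; exact hg⟩
    · rintro ⟨g, hg⟩
      exact ⟨(i1.trans f).symm g, by rw [MulEquiv.orderOf_eq]; exact hg⟩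

end Cfsg.Agent.Lib.Helper60.G24
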